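import Cfsg.Agent.Lib.Leech.PlusGroup
import Cfsg.Agent.Lib.Known3.QuadIso
import Cfsg.Agent.Lib.Classical.OrderQuad
import Cfsg.Agent.Lib.Classical.OrthBridge
import Cfsg.Prelude.Def_KGroupFacts

/-!
# The outer automorphism group of an extraspecial 2-group is an orthogonal group

The kernel of the action on the central quotient consists of the inner automorphisms. Every isometry lifts:
the pairs `(g, g')` with `g'` over the image of `g` form a group whose squares lie in the diagonal centre, and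
a hyperplane of that group missing `(1, z)` is the graph of an automorphism.
-/

set_option autoImplicit false

namespace Cfsg.Agent.Lib.LargeES.OutOrth

open Cfsg.Agent.Lib.Leech.Plus Cfsg.Agent.Lib.Classical.Abs

section hyperplane

variable {H : Type*} [Group H]

theorem normal_of_sq {M : Subgroup H} (hsq : ∀ t : H, t * t ∈ M) : M.Normal := by
  constructor
  intro m hm g
  have h1 : g * m * g⁻¹ = (g * m) * (g * m) * m⁻¹ * (g⁻¹ * g⁻¹) := by group
  rw [h1]
  exact M.mul_mem (M.mul_mem (hsq _) (M.inv_mem hm)) (hsq _)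

theorem exists_hyperplane [Finite H] (M₀ : Subgroup H) (w : H) (hw : w ∉ M₀) (hsq : ∀ t : H, t * t ∈ M₀) :
    ∃ M : Subgroup H, M₀ ≤ M ∧ w ∉ M ∧ ∀ t, t ∈ M ∨ t * w ∈ M := by
  classical
  let S : Set (Subgroup H) := {M | M₀ ≤ M ∧ w ∉ M}
  obtain ⟨M, hM⟩ := (Set.toFinite S).exists_maximal ⟨M₀, le_refl _, hw⟩
  refine ⟨M, hM.1.1, hM.1.2, ?_⟩
  intro t
  by_contra hcon
  push Not at hcon
  obtain ⟨htM, htw⟩ := hcon
  have hsqM : ∀ t : H, t * t ∈ M := fun t => hM.1.1 (hsq t)
  have hN : M.Normal := normal_of_sq hsqM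
  -- the larger group contains `w`
  have hw' : w ∈ Subgroup.zpowers t ⊔ M := by
    by_contra hw'
    have h1 : (Subgroup.zpowers t ⊔ M) ∈ S := ⟨le_trans hM.1.1 le_sup_right, hw'⟩
    have h2 := hM.2 h1 (le_sup_right)
    exact htM (h2 (Subgroup.mem_sup_left (Subgroup.mem_zpowers t)))
  rw [← SetLike.mem_coe, Subgroup.mul_normal] at hw'
  obtain ⟨a, ha, m, hm, hwe⟩ := hw'
  obtain ⟨k, rfl⟩ := Subgroup.mem_zpowers_iff.1 ha
  have hwe' : t ^ k * m = w := hwe
  rcases Int.even_or_odd' k with ⟨j, rfl | rfl⟩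
  · apply hM.1.2
    rw [← hwe', zpow_mul, zpow_two]
    exact M.mul_mem (M.zpow_mem (hsqM t) _) hm
  · apply htw
    rw [← hwe']
    have h1 : t ^ (2 * j + 1) = (t * t) ^ j * t := by
      rw [zpow_add, zpow_mul, zpow_two, zpow_one]
    rw [h1]
    have h2 : t * ((t * t) ^ j * t * m) = t * (t * t) ^ j * t⁻¹ * (t * t) * m := by group
    rw [h2]
    exact M.mul_mem (M.mul_mem (hN.conj_mem _ (M.zpow_mem (hsqM t) _) t) (hsqM t)) hm

end hyperplane

universe u v

variable {E : Type u} [Group E] {z₀ : E} {V : Type v} [AddCommGroup V] [Module (ZMod 2) V]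

/-- The data of the quadratic space attached to an extraspecial group. -/
structure Model (z₀ : E) (Q : QuadraticForm (ZMod 2) V) (π : E → V) : Prop where
  ex : Ex z₀
  surj : Function.Surjective π
  add : ∀ x y, π (x * y) = π x + π y
  ker : ∀ x, π x = 0 ↔ x = 1 ∨ x = z₀
  qval : ∀ x, Q (π x) = val x

namespace Model

variable {Q : QuadraticForm (ZMod 2) V} {π : E → V} (M : Model z₀ Q π)
include M

theorem pi_one : π 1 = 0 := (M.ker 1).2 (Or.inl rfl)

theorem pi_z : π z₀ = 0 := (M.ker z₀).2 (Or.inr rfl)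

theorem pi_inv (x : E) : π x⁻¹ = - π x := by
  have h := M.add x⁻¹ x
  rw [inv_mul_cancel, M.pi_one] at h
  exact eq_neg_of_add_eq_zero_left h.symm

theorem eq_or {x y : E} (h : π x = π y) : y = x ∨ y = x * z₀ := by
  have h1 : π (x⁻¹ * y) = 0 := by
    rw [M.add, M.pi_inv, h, neg_add_cancel]
  rcases (M.ker _).1 h1 with h2 | h2
  · left
    exact (inv_mul_eq_one.1 h2).symm
  · right
    rw [← h2]
    group

theorem pol (x y : E) : QuadraticMap.polar (⇑Q) (π x) (π y) = cm x y := by
  rw [QuadraticMap.polar, ← M.add, M.qval, M.qval, M.qval, M.ex.val_mul]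
  ring

theorem aut_z (α : MulAut E) : α z₀ = z₀ := by
  have hc : ∀ t, t * α z₀ = α z₀ * t := by
    intro t
    obtain ⟨s, rfl⟩ := α.surjective t
    rw [← map_mul, ← map_mul, M.ex.hcen]
  rcases M.ex.hcc _ hc with h | h
  · exfalso
    apply M.ex.hz
    apply α.injective
    rw [h, map_one]
  · exact h

omit M in
theorem val_aut (α : MulAut E) (x : E) : val (α x) = val x := by
  by_cases h : x * x = 1
  · rw [val_eq_zero h, val_eq_zero]
    rw [← map_mul, h, map_one]
  · rw [val_eq_one h, val_eq_one]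
    intro h'
    apply h
    apply α.injective
    rw [map_mul, h', map_one]

theorem nondeg_left {v : V} (h : ∀ y, QuadraticMap.polar (⇑Q) v y = 0) : v = 0 := by
  obtain ⟨x, rfl⟩ := M.surj v
  rw [M.ker]
  apply M.ex.hcc
  intro t
  have h1 := h (π t)
  rw [M.pol] at h1
  by_contra hcon
  have h2 : cm x t = 1 := cm_eq_one fun h3 => hcon h3.symm
  rw [h2] at h1
  exact one_ne_zero h1

theorem nondeg : (QuadraticMap.polarBilin Q).Nondegenerate := by
  constructor
  · intro x hx
    exact M.nondeg_left hx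
  · intro x hx
    apply M.nondeg_left
    intro y
    rw [QuadraticMap.polar_comm]
    exact hx y

end Model

/-- The map induced by an automorphism. -/
noncomputable def bar {π : E → V} (hs : Function.Surjective π) (α : MulAut E) : V → V :=
  fun v => π (α (Function.surjInv hs v))

namespace Model

variable {Q : QuadraticForm (ZMod 2) V} {π : E → V} (M : Model z₀ Q π)
include M

theorem bar_pi (α : MulAut E) (x : E) : bar M.surj α (π x) = π (α x) := by
  have h1 : π x = π (Function.surjInv M.surj (π x)) := (Function.surjInv_eq M.surj _).symm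
  change π (α (Function.surjInv M.surj (π x))) = _
  rcases M.eq_or h1 with h2 | h2
  · rw [h2]
  · rw [h2, map_mul, M.add, M.aut_z, M.pi_z, add_zero]

omit M in
/-- The linear map induced by an automorphism. -/
noncomputable def barL (M : Model z₀ Q π) (α : MulAut E) : V →ₗ[ZMod 2] V where
  toFun := bar M.surj α
  map_add' u v := by
    obtain ⟨x, rfl⟩ := M.surj u
    obtain ⟨y, rfl⟩ := M.surj v
    rw [← M.add, M.bar_pi, M.bar_pi, M.bar_pi, map_mul, M.add]
  map_smul' c u := by
    have h : c = 0 ∨ c = 1 := by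
      revert c
      decide
    rcases h with rfl | rfl
    · rw [RingHom.id_apply, zero_smul, zero_smul, ← M.pi_one, M.bar_pi, map_one]
    · rw [RingHom.id_apply, one_smul, one_smul]

theorem barL_pi (α : MulAut E) (x : E) : M.barL α (π x) = π (α x) := M.bar_pi α x

theorem barL_mul (α β : MulAut E) (v : V) : M.barL (α * β) v = M.barL α (M.barL β v) := by
  obtain ⟨x, rfl⟩ := M.surj v
  rw [M.barL_pi, M.barL_pi, M.barL_pi]
  rfl

theorem barL_one (v : V) : M.barL 1 v = v := by
  obtain ⟨x, rfl⟩ := M.surj v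
  rw [M.barL_pi]
  rfl

omit M in
/-- The linear equivalence induced by an automorphism. -/
noncomputable def barE (M : Model z₀ Q π) (α : MulAut E) : V ≃ₗ[ZMod 2] V :=
  LinearEquiv.ofLinearMap (M.barL α) (M.barL α⁻¹)
    (LinearMap.ext fun v => by
      rw [LinearMap.comp_apply, ← M.barL_mul, mul_inv_cancel, M.barL_one]
      rfl)
    (LinearMap.ext fun v => by
      rw [LinearMap.comp_apply, ← M.barL_mul, inv_mul_cancel, M.barL_one]
      rfl)

theorem barE_pi (α : MulAut E) (x : E) : M.barE α (π x) = π (α x) := M.bar_pi α x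

omit M in
/-- The homomorphism to the orthogonal group. -/
noncomputable def phi (M : Model z₀ Q π) : MulAut E →* Cfsg.Agent.Lib.Classical.Orth.OG Q where
  toFun α := ⟨M.barE α, by
    intro u _
    obtain ⟨x, rfl⟩ := M.surj u
    change Q (M.barE α (π x)) = Q (π x)
    rw [M.barE_pi, M.qval, M.qval, val_aut]⟩
  map_one' := by
    apply Subtype.ext
    apply LinearEquiv.ext
    intro v
    exact M.barL_one v
  map_mul' α β := by
    apply Subtype.ext
    apply LinearEquiv.ext
    intro v
    exact M.barL_mul α β v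

theorem phi_pi (α : MulAut E) (x : E) : (M.phi α).1 (π x) = π (α x) := M.bar_pi α x

theorem inn_le_ker : Cfsg.Inn E ≤ M.phi.ker := by
  rintro _ ⟨a, rfl⟩
  rw [MonoidHom.mem_ker]
  apply Subtype.ext
  apply LinearEquiv.ext
  intro v
  obtain ⟨x, rfl⟩ := M.surj v
  rw [M.phi_pi, MulAut.conj_apply, M.add, M.add, M.pi_inv]
  change _ = π x
  abel

/-- The displacement of an automorphism acting trivially. -/
theorem disp (α : MulAut E) (h : ∀ x, π (α x) = π x) (x : E) : α x = x ∨ α x = x * z₀ :=
  M.eq_or (h x).symm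

theorem ker_le_inn [FiniteDimensional (ZMod 2) V] : M.phi.ker ≤ Cfsg.Inn E := by
  classical
  intro α hα
  have h1 : ∀ x, π (α x) = π x := by
    intro x
    rw [← M.phi_pi, hα]
    rfl
  have hd := M.disp α h1
  -- the displacement functional
  let d : E → ZMod 2 := fun x => if α x = x then 0 else 1
  have hz1 : z₀ ≠ 1 := M.ex.hz
  have hne : ∀ x : E, x * z₀ ≠ x := by
    intro x hx
    exact hz1 (mul_left_cancel (hx.trans (mul_one x).symm))
  have hd0 : ∀ {x}, α x = x → d x = 0 := fun {x} hx => if_pos hx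
  have hd1 : ∀ {x}, α x = x * z₀ → d x = 1 := fun {x} hx => if_neg (by rw [hx]; exact hne x)
  have hdz : ∀ x, d (x * z₀) = d x := by
    intro x
    rcases hd x with h | h
    · rw [hd0 h, hd0]
      rw [map_mul, h, M.aut_z]
    · rw [hd1 h, hd1]
      rw [map_mul, h, M.aut_z]
  have hdm : ∀ x y, d (x * y) = d x + d y := by
    intro x y
    rcases hd x with h | h <;> rcases hd y with h' | h'
    · rw [hd0 h, hd0 h', hd0]
      · rfl
      · rw [map_mul, h, h']
    · rw [hd0 h, hd1 h', hd1]
      · rfl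
      · rw [map_mul, h, h', mul_assoc]
    · rw [hd1 h, hd0 h', hd1]
      · rfl
      · rw [map_mul, h, h']
        calc x * z₀ * y = x * (z₀ * y) := by group
          _ = x * (y * z₀) := by rw [M.ex.hcen]
          _ = x * y * z₀ := by group
    · rw [hd1 h, hd1 h', hd0]
      · rfl
      · rw [map_mul, h, h']
        calc x * z₀ * (y * z₀) = x * (z₀ * y) * z₀ := by group
          _ = x * (y * z₀) * z₀ := by rw [← M.ex.hcen y]
          _ = x * y * (z₀ * z₀) := by group
          _ = x * y := by rw [M.ex.hzz, mul_one]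
  have hdpi : ∀ x y, π x = π y → d x = d y := by
    intro x y hxy
    rcases M.eq_or hxy with h | h
    · rw [h]
    · rw [h, hdz]
  let f : V →ₗ[ZMod 2] ZMod 2 :=
    { toFun := fun v => d (Function.surjInv M.surj v)
      map_add' := fun u v => by
        rw [← hdm]
        apply hdpi
        rw [M.add, Function.surjInv_eq M.surj, Function.surjInv_eq M.surj, Function.surjInv_eq M.surj]
      map_smul' := fun c v => by
        have hc : c = 0 ∨ c = 1 := by
          revert c
          decide
        have h0 : d (Function.surjInv M.surj 0) = 0 := by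
          have : d 1 = 0 := hd0 (map_one α)
          rw [← this]
          apply hdpi
          rw [Function.surjInv_eq M.surj, M.pi_one]
        rcases hc with rfl | rfl
        · simp [h0]
        · simp }
  have hf : ∀ x, f (π x) = d x := by
    intro x
    apply hdpi
    rw [Function.surjInv_eq M.surj]
  have hnd := M.nondeg
  obtain ⟨a, ha⟩ := M.surj ((LinearMap.BilinForm.toDual (QuadraticMap.polarBilin Q) hnd).symm f)
  have hcm : ∀ x, cm a x = d x := by
    intro x
    rw [← M.pol, ← hf, ha]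
    exact LinearMap.BilinForm.apply_toDual_symm_apply (hB := hnd) f (π x)
  refine ⟨a, ?_⟩
  ext x
  rw [MulAut.conj_apply]
  rcases hd x with h | h
  · rw [h]
    have h2 : cm a x = 0 := by rw [hcm, hd0 h]
    have h3 : a * x = x * a := by
      by_contra hcon
      rw [cm_eq_one hcon] at h2
      exact one_ne_zero h2
    rw [h3]
    group
  · rw [h]
    have h2 : cm a x = 1 := by rw [hcm, hd1 h]
    have h3 : ¬ a * x = x * a := by
      intro hcon
      rw [cm_eq_zero hcon] at h2
      exact zero_ne_one h2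
    rcases M.ex.hcom a x with h4 | h4
    · exact absurd h4 h3
    · rw [h4]
      calc x * a * z₀ * a⁻¹ = x * (a * z₀) * a⁻¹ := by group
        _ = x * (z₀ * a) * a⁻¹ := by rw [M.ex.hcen]
        _ = x * z₀ := by group

theorem phi_surj [Finite E] : Function.Surjective M.phi := by
  intro σ
  let Γ : Subgroup (E × E) :=
    { carrier := {t | π t.2 = σ.1 (π t.1)}
      mul_mem' := by
        intro a b ha hb
        change π (a.2 * b.2) = σ.1 (π (a.1 * b.1))
        rw [M.add, M.add, map_add, ha, hb]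
      one_mem' := by
        change π 1 = σ.1 (π 1)
        rw [M.pi_one, map_zero]
      inv_mem' := by
        intro a ha
        change π a.2⁻¹ = σ.1 (π a.1⁻¹)
        rw [M.pi_inv, M.pi_inv, map_neg, ha] }
  have hΓ : ∀ {g g' : E}, π g' = σ.1 (π g) → (g, g') ∈ Γ := fun h => h
  let zz : Γ := ⟨(z₀, z₀), hΓ (by rw [M.pi_z, map_zero])⟩
  let w : Γ := ⟨(1, z₀), hΓ (by rw [M.pi_z, M.pi_one, map_zero])⟩
  have hw : w ∉ Subgroup.zpowers zz := by
    intro h
    obtain ⟨k, hk⟩ := Subgroup.mem_zpowers_iff.1 h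
    have h1 : (zz ^ k).1.1 = (zz ^ k).1.2 := by
      simp [zz]
    rw [hk] at h1
    exact M.ex.hz h1.symm
  have hsq : ∀ t : Γ, t * t ∈ Subgroup.zpowers zz := by
    rintro ⟨⟨g, g'⟩, ht⟩
    have ht' : π g' = σ.1 (π g) := ht
    have hv : val g' = val g := by
      rw [← M.qval, ← M.qval, ht']
      exact σ.2 _ 0
    rcases M.ex.hsq g with h | h
    · have h2 : g' * g' = 1 := by
        by_contra hcon
        rw [val_eq_one hcon, val_eq_zero h] at hv
        exact one_ne_zero hv
      have h3 : (⟨(g, g'), ht⟩ : Γ) * ⟨(g, g'), ht⟩ = 1 := by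
        apply Subtype.ext
        apply Prod.ext
        · exact h
        · exact h2
      rw [h3]
      exact one_mem _
    · have h1 : g * g ≠ 1 := by
        rw [h]
        exact M.ex.hz
      have h2 : g' * g' = z₀ := by
        rcases M.ex.hsq g' with h3 | h3
        · rw [val_eq_zero h3, val_eq_one h1] at hv
          exact absurd hv zero_ne_one
        · exact h3
      have h3 : (⟨(g, g'), ht⟩ : Γ) * ⟨(g, g'), ht⟩ = zz := by
        apply Subtype.ext
        apply Prod.ext
        · exact h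
        · exact h2
      rw [h3]
      exact Subgroup.mem_zpowers zz
  obtain ⟨N, hN0, hNw, hN⟩ := exists_hyperplane (Subgroup.zpowers zz) w hw hsq
  have hzzN : zz ∈ N := hN0 (Subgroup.mem_zpowers zz)
  have hgraph : ∀ g : E, ∃ (g' : E) (h : (g, g') ∈ Γ), (⟨(g, g'), h⟩ : Γ) ∈ N := by
    intro g
    obtain ⟨g₀, hg₀⟩ := M.surj (σ.1 (π g))
    have h1 : (g, g₀) ∈ Γ := hg₀
    rcases hN ⟨(g, g₀), h1⟩ with h2 | h2
    · exact ⟨g₀, h1, h2⟩
    · have h3 : (g, g₀ * z₀) ∈ Γ := hΓ (by rw [M.add, M.pi_z, add_zero, hg₀])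
      refine ⟨g₀ * z₀, h3, ?_⟩
      have h4 : (⟨(g, g₀ * z₀), h3⟩ : Γ) = ⟨(g, g₀), h1⟩ * w := by
        apply Subtype.ext
        apply Prod.ext
        · exact (mul_one g).symm
        · rfl
      rw [h4]
      exact h2
  choose a ha hN' using hgraph
  have huniq : ∀ (g g' : E) (h : (g, g') ∈ Γ), (⟨(g, g'), h⟩ : Γ) ∈ N → g' = a g := by
    intro g g' h hm
    have h1 : (⟨(g, a g), ha g⟩ : Γ)⁻¹ * ⟨(g, g'), h⟩ ∈ N := N.mul_mem (N.inv_mem (hN' g)) hm
    have h2 : π ((a g)⁻¹ * g') = 0 := by
      have e1 : π (a g) = σ.1 (π g) := ha g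
      have e2 : π g' = σ.1 (π g) := h
      rw [M.add, M.pi_inv, e1, e2, neg_add_cancel]
    rcases (M.ker _).1 h2 with h3 | h3
    · exact (inv_mul_eq_one.1 h3).symm
    · exfalso
      apply hNw
      have h4 : (⟨(g, a g), ha g⟩ : Γ)⁻¹ * ⟨(g, g'), h⟩ = w := by
        apply Subtype.ext
        apply Prod.ext
        · exact inv_mul_cancel g
        · exact h3
      rw [← h4]
      exact h1
  have hmul : ∀ g h, a (g * h) = a g * a h := by
    intro g h
    have h1 := N.mul_mem (hN' g) (hN' h)
    exact (huniq (g * h) (a g * a h) _ h1).symm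
  let aH : E →* E := MonoidHom.mk' a hmul
  have hinj : Function.Injective aH := by
    rw [injective_iff_map_eq_one]
    intro g hg
    have hg' : a g = 1 := hg
    have h1 : π (a g) = σ.1 (π g) := ha g
    rw [hg', M.pi_one] at h1
    have h2 : π g = 0 := by
      have := σ.1.map_eq_zero_iff.1 h1.symm
      exact this
    rcases (M.ker g).1 h2 with h3 | h3
    · exact h3
    · exfalso
      apply hNw
      have h4 : (⟨(g, a g), ha g⟩ : Γ)⁻¹ * zz = w := by
        apply Subtype.ext
        apply Prod.ext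
        · change g⁻¹ * z₀ = 1
          rw [h3, inv_mul_cancel]
        · change (a g)⁻¹ * z₀ = z₀
          rw [hg', inv_one, one_mul]
      rw [← h4]
      exact N.mul_mem (N.inv_mem (hN' g)) hzzN
  let α : MulAut E := MulEquiv.ofBijective aH (Finite.injective_iff_bijective.1 hinj)
  refine ⟨α, ?_⟩
  apply Subtype.ext
  apply LinearEquiv.ext
  intro v
  obtain ⟨x, rfl⟩ := M.surj v
  rw [M.phi_pi]
  exact ha x

/-- The outer automorphism group is the orthogonal group of the model. -/
theorem out_equiv [Finite E] [FiniteDimensional (ZMod 2) V] :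
    Nonempty (Cfsg.Out E ≃* Cfsg.Agent.Lib.Classical.Orth.OG Q) := by
  have h : Cfsg.Inn E = M.phi.ker := le_antisymm M.inn_le_ker M.ker_le_inn
  exact ⟨(QuotientGroup.quotientMulEquivOfEq h).trans (QuotientGroup.quotientKerEquivOfSurjective _ M.phi_surj)⟩

end Model

section construct

/-- Subspaces of every smaller dimension. -/
theorem exists_sub_finrank {W : Submodule (ZMod 2) V} [FiniteDimensional (ZMod 2) V] (n : ℕ)
    (hn : n ≤ Module.finrank (ZMod 2) W) : ∃ U : Submodule (ZMod 2) V, U ≤ W ∧ Module.finrank (ZMod 2) U = n := by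
  induction n with
  | zero => exact ⟨⊥, bot_le, by simp⟩
  | succ k ih =>
    obtain ⟨U, hU, hk⟩ := ih (by omega)
    have hne : ¬ W ≤ U := by
      intro h
      have := Submodule.finrank_mono h
      omega
    obtain ⟨v, hv, hvU⟩ := SetLike.not_le_iff_exists.1 hne
    have hv0 : v ≠ 0 := by
      rintro rfl
      exact hvU U.zero_mem
    refine ⟨U ⊔ Submodule.span (ZMod 2) {v}, sup_le hU ((Submodule.span_singleton_le_iff_mem _ _).2 hv), ?_⟩
    have h1 := Submodule.finrank_sup_add_finrank_inf_eq U (Submodule.span (ZMod 2) {v})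
    have h2 : U ⊓ Submodule.span (ZMod 2) {v} = ⊥ := by
      rw [eq_bot_iff]
      rintro x ⟨hx1, hx2⟩
      obtain ⟨c, rfl⟩ := Submodule.mem_span_singleton.1 hx2
      have hc : ∀ c : ZMod 2, c = 0 ∨ c = 1 := by decide
      rcases hc c with rfl | rfl
      · simp
      · rw [one_smul] at hx1
        exact absurd hx1 hvU
    rw [h2, finrank_bot, finrank_span_singleton hv0] at h1
    omega

variable {Q : QuadraticForm (ZMod 2) V} {π : E → V}

namespace Model

/-- The preimage of a subspace. -/
def preim (M : Model z₀ Q π) (W : Submodule (ZMod 2) V) : Subgroup E where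
  carrier := {x | π x ∈ W}
  mul_mem' := by
    intro a b ha hb
    change π (a * b) ∈ W
    rw [M.add]
    exact W.add_mem ha hb
  one_mem' := by
    change π 1 ∈ W
    rw [M.pi_one]
    exact W.zero_mem
  inv_mem' := by
    intro a ha
    change π a⁻¹ ∈ W
    rw [M.pi_inv]
    exact W.neg_mem ha

/-- The image of a subgroup. -/
def img (M : Model z₀ Q π) (A : Subgroup E) : Submodule (ZMod 2) V where
  carrier := π '' A
  add_mem' := by
    rintro _ _ ⟨a, ha, rfl⟩ ⟨b, hb, rfl⟩
    exact ⟨a * b, A.mul_mem ha hb, M.add a b⟩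
  zero_mem' := ⟨1, A.one_mem, M.pi_one⟩
  smul_mem' := by
    rintro c _ ⟨a, ha, rfl⟩
    have hc : c = 0 ∨ c = 1 := by
      revert c
      decide
    rcases hc with rfl | rfl
    · rw [zero_smul]
      exact ⟨1, A.one_mem, M.pi_one⟩
    · rw [one_smul]
      exact ⟨a, ha, rfl⟩

variable (M : Model z₀ Q π)
include M

theorem card_zpowers [Finite E] : Nat.card (Subgroup.zpowers z₀) = 2 := by
  rw [Nat.card_zpowers]
  exact orderOf_eq_prime (by rw [pow_two]; exact M.ex.hzz) M.ex.hz

theorem mem_zpowers_iff (x : E) : x ∈ Subgroup.zpowers z₀ ↔ x = 1 ∨ x = z₀ := by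
  constructor
  · intro h
    rw [← M.ker]
    obtain ⟨k, rfl⟩ := Subgroup.mem_zpowers_iff.1 h
    rcases Int.even_or_odd' k with ⟨j, rfl | rfl⟩
    · rw [zpow_mul, zpow_two, M.ex.hzz, one_zpow, M.pi_one]
    · rw [zpow_add, zpow_mul, zpow_two, M.ex.hzz, one_zpow, one_mul, zpow_one, M.pi_z]
  · rintro (rfl | rfl)
    · exact one_mem _
    · exact Subgroup.mem_zpowers _

theorem card_preim [Finite E] (W : Submodule (ZMod 2) V) : Nat.card (M.preim W) = 2 * Nat.card W := by
  let s := Function.surjInv M.surj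
  have hs : ∀ v, π (s v) = v := Function.surjInv_eq M.surj
  let e : (M.preim W) ≃ W × Subgroup.zpowers z₀ :=
    { toFun := fun x => (⟨π x.1, x.2⟩, ⟨(s (π x.1))⁻¹ * x.1, (M.mem_zpowers_iff _).2 ((M.ker _).1 (by
        rw [M.add, M.pi_inv, hs, neg_add_cancel]))⟩)
      invFun := fun p => ⟨s p.1.1 * p.2.1, by
        change π _ ∈ W
        rw [M.add, hs, (M.ker _).2 ((M.mem_zpowers_iff _).1 p.2.2), add_zero]
        exact p.1.2⟩
      left_inv := fun x => by
        apply Subtype.ext
        simp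
      right_inv := fun p => by
        have h1 : π (s p.1.1 * p.2.1) = p.1.1 := by
          rw [M.add, hs, (M.ker _).2 ((M.mem_zpowers_iff _).1 p.2.2), add_zero]
        apply Prod.ext
        · apply Subtype.ext
          exact h1
        · apply Subtype.ext
          change (s (π (s p.1.1 * p.2.1)))⁻¹ * (s p.1.1 * p.2.1) = p.2.1
          rw [h1]
          group }
  rw [Nat.card_congr e, Nat.card_prod, M.card_zpowers, mul_comm]

theorem ea_of_ts {W : Submodule (ZMod 2) V} (hW : ∀ u ∈ W, Q u = 0) : Cfsg.IsElementaryAbelian 2 (M.preim W) := by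
  have hq : ∀ x ∈ M.preim W, val x = 0 := by
    intro x hx
    rw [← M.qval]
    exact hW _ hx
  have hs : ∀ x ∈ M.preim W, x * x = 1 := by
    intro x hx
    by_contra hcon
    have := hq x hx
    rw [val_eq_one hcon] at this
    exact one_ne_zero this
  refine ⟨⟨⟨fun a b => ?_⟩⟩, fun a ha => ?_⟩
  · apply Subtype.ext
    have h1 := M.pol a.1 b.1
    have h2 : QuadraticMap.polar (⇑Q) (π a.1) (π b.1) = 0 := by
      rw [QuadraticMap.polar, ← M.add, hW _ (show π (a.1 * b.1) ∈ W from (M.preim W).mul_mem a.2 b.2),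
        hW _ a.2, hW _ b.2]
      simp
    rw [h2] at h1
    by_contra hcon
    have h3 : ¬ a.1 * b.1 = b.1 * a.1 := hcon
    rw [cm_eq_one h3] at h1
    exact zero_ne_one h1
  · rw [pow_two]
    exact hs a ha

theorem ts_of_ea {A : Subgroup E} (hA : Cfsg.IsElementaryAbelian 2 A) : ∀ u ∈ M.img A, Q u = 0 := by
  rintro _ ⟨a, ha, rfl⟩
  rw [M.qval]
  apply val_eq_zero
  rw [← pow_two]
  exact hA.2 a ha

theorem le_preim_img (A : Subgroup E) : A ≤ M.preim (M.img A) := fun a ha => ⟨a, ha, rfl⟩

end Model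

/-- The quadratic space of an extraspecial group. -/
theorem exists_model [Finite E] (h : Ex z₀) :
    ∃ (V : Type u) (_ : AddCommGroup V) (_ : Module (ZMod 2) V) (Q : QuadraticForm (ZMod 2) V) (π : E → V),
      Model z₀ Q π ∧ Finite V ∧ Nat.card V * 2 = Nat.card E := by
  classical
  have hmem : ∀ x : E, x ∈ Subgroup.zpowers z₀ ↔ x = 1 ∨ x = z₀ := by
    intro x
    constructor
    · intro hx
      obtain ⟨k, rfl⟩ := Subgroup.mem_zpowers_iff.1 hx
      rcases Int.even_or_odd' k with ⟨j, rfl | rfl⟩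
      · left
        rw [zpow_mul, zpow_two, h.hzz, one_zpow]
      · right
        rw [zpow_add, zpow_mul, zpow_two, h.hzz, one_zpow, one_mul, zpow_one]
    · rintro (rfl | rfl)
      · exact one_mem _
      · exact Subgroup.mem_zpowers _
  have hN : (Subgroup.zpowers z₀).Normal := by
    constructor
    intro n hn g
    rw [hmem] at hn ⊢
    rcases hn with hn | hn
    · left
      rw [hn]
      group
    · right
      rw [hn, h.hcen g]
      group
  let cg : CommGroup (E ⧸ Subgroup.zpowers z₀) :=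
    { (inferInstance : Group (E ⧸ Subgroup.zpowers z₀)) with
      mul_comm := by
        intro a b
        obtain ⟨x, rfl⟩ := QuotientGroup.mk_surjective a
        obtain ⟨y, rfl⟩ := QuotientGroup.mk_surjective b
        rw [← QuotientGroup.mk_mul, ← QuotientGroup.mk_mul, QuotientGroup.eq]
        rw [hmem]
        rcases h.hcom x y with h1 | h1
        · left
          rw [h1]
          group
        · right
          rw [h1]
          group
          rw [zpow_neg_one]
          exact inv_eq_of_mul_eq_one_left h.hzz }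
  have hsq2 : ∀ v : Additive (E ⧸ Subgroup.zpowers z₀), (2 : ℕ) • v = 0 := by
    intro v
    obtain ⟨x, hx⟩ := QuotientGroup.mk_surjective (Additive.toMul v)
    have hv : v = Additive.ofMul (x : E ⧸ Subgroup.zpowers z₀) := by rw [hx]; rfl
    have h2 : (x : E ⧸ Subgroup.zpowers z₀) ^ 2 = 1 := by
      rw [pow_two, ← QuotientGroup.mk_mul, QuotientGroup.eq_one_iff, hmem]
      exact h.hsq x
    rw [hv, ← ofMul_pow, h2]
    rfl
  let mod : Module (ZMod 2) (Additive (E ⧸ Subgroup.zpowers z₀)) := AddCommGroup.zmodModule hsq2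
  let π : E → Additive (E ⧸ Subgroup.zpowers z₀) := fun x => Additive.ofMul (x : E ⧸ Subgroup.zpowers z₀)
  have hsurj : Function.Surjective π := by
    intro v
    obtain ⟨x, hx⟩ := QuotientGroup.mk_surjective (Additive.toMul v)
    exact ⟨x, by rw [← ofMul_toMul v, ← hx]⟩
  have hadd : ∀ x y, π (x * y) = π x + π y := fun x y => rfl
  have hker : ∀ x, π x = 0 ↔ x = 1 ∨ x = z₀ := by
    intro x
    rw [← hmem, ← QuotientGroup.eq_one_iff]
    rfl
  let s := Function.surjInv hsurj
  have hs : ∀ v, π (s v) = v := Function.surjInv_eq hsurj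
  let qf : Additive (E ⧸ Subgroup.zpowers z₀) → ZMod 2 := fun v => val (s v)
  have hqf : ∀ x, qf (π x) = val x := by
    intro x
    have h1 : π ((s (π x))⁻¹ * x) = 0 := by
      rw [hadd]
      have h2 : π (s (π x))⁻¹ = - π (s (π x)) := by
        have h3 := hadd (s (π x))⁻¹ (s (π x))
        rw [inv_mul_cancel] at h3
        have h4 : π 1 = 0 := (hker 1).2 (Or.inl rfl)
        rw [h4] at h3
        exact eq_neg_of_add_eq_zero_left h3.symm
      rw [h2, hs, neg_add_cancel]
    change val (s (π x)) = val x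
    rcases (hker _).1 h1 with h2 | h2
    · rw [inv_mul_eq_one.1 h2]
    · have h3 : x = s (π x) * z₀ := by
        rw [← h2]
        group
      conv_rhs => rw [h3]
      rw [h.val_central h.hcen]
  have hpol : ∀ x y, QuadraticMap.polar qf (π x) (π y) = cm x y := by
    intro x y
    rw [QuadraticMap.polar, ← hadd, hqf, hqf, hqf, h.val_mul]
    ring
  have hq0 : qf 0 = 0 := by
    have h1 : π 1 = 0 := (hker 1).2 (Or.inl rfl)
    rw [← h1, hqf]
    exact val_eq_zero (mul_one 1)
  have hcases : ∀ c : ZMod 2, c = 0 ∨ c = 1 := by decide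
  let Q : QuadraticForm (ZMod 2) (Additive (E ⧸ Subgroup.zpowers z₀)) :=
    QuadraticMap.ofPolar qf
      (by
        intro a x
        rcases hcases a with rfl | rfl
        · rw [zero_smul, hq0]
          simp
        · rw [one_smul]
          simp)
      (by
        intro x x' y
        obtain ⟨a, rfl⟩ := hsurj x
        obtain ⟨b, rfl⟩ := hsurj x'
        obtain ⟨c, rfl⟩ := hsurj y
        rw [← hadd, hpol, hpol, hpol, h.cm_mul])
      (by
        intro a x y
        rcases hcases a with rfl | rfl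
        · rw [zero_smul, zero_smul, QuadraticMap.polar, zero_add, hq0]
          simp
        · rw [one_smul, one_smul])
  refine ⟨Additive (E ⧸ Subgroup.zpowers z₀), inferInstance, mod, Q, π, ⟨h, hsurj, hadd, hker, hqf⟩, inferInstance, ?_⟩
  have h1 : Nat.card (Additive (E ⧸ Subgroup.zpowers z₀)) = Nat.card (E ⧸ Subgroup.zpowers z₀) := rfl
  have h2 : Nat.card (Subgroup.zpowers z₀) = 2 := by
    rw [Nat.card_zpowers]
    exact orderOf_eq_prime (by rw [pow_two]; exact h.hzz) h.hz
  rw [h1, ← h2]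
  exact (Subgroup.card_eq_card_quotient_mul_card_subgroup _).symm

end construct

section final

variable {Q : QuadraticForm (ZMod 2) V} {π : E → V}

/-- Transfer to coordinates. -/
theorem out_std [Finite E] [FiniteDimensional (ZMod 2) V] (M : Model z₀ Q π) {ι : Type} [Fintype ι] [DecidableEq ι]
    (Qs : QuadraticForm (ZMod 2) (ι → ZMod 2)) (θ : V ≃ₗ[ZMod 2] (ι → ZMod 2)) (hθ : ∀ v, Qs (θ v) = Q v)
    (q : (ι → ZMod 2) → ZMod 2) (hq : ⇑Qs = q) : Nonempty (Cfsg.Out E ≃* Cfsg.isometryGroup (ZMod 2) q) := by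
  subst hq
  obtain ⟨e⟩ := M.out_equiv
  exact ⟨e.trans ((Cfsg.Agent.Lib.Classical.Abs.isoGCongr θ _ _ (fun u _ => hθ u)).trans
    (Cfsg.Agent.Lib.Classical.Orth.toOG Qs).symm)⟩

theorem main {E : Type u} [Group E] [Finite E] (hE : Cfsg.IsExtraspecial 2 E) (n : ℕ) (hn : 1 ≤ n)
    (hcard : Nat.card E = 2 ^ (2 * n + 1)) :
    ((∃ A : Subgroup E, Cfsg.IsElementaryAbelian 2 A ∧ Nat.card ↥A = 2 ^ (n + 1)) →
      Nonempty (Cfsg.Out E ≃* Cfsg.isometryGroup (ZMod 2) (Cfsg.quadFormPlus n (ZMod 2)))) ∧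
    ((¬ ∃ A : Subgroup E, Cfsg.IsElementaryAbelian 2 A ∧ Nat.card ↥A = 2 ^ (n + 1)) →
      Nonempty (Cfsg.Out E ≃* Cfsg.isometryGroup (ZMod 2) (Cfsg.quadFormMinus (n - 1) (ZMod 2) 1 1))) := by
  obtain ⟨z₀, hz⟩ := ex_of_extraspecial hE
  obtain ⟨V, _, _, Q, π, M, hfin, hcV⟩ := exists_model hz
  have : FiniteDimensional (ZMod 2) V := Module.Finite.of_finite
  have hcardpow : ∀ W : Submodule (ZMod 2) V, Nat.card W = 2 ^ Module.finrank (ZMod 2) W := by
    intro W
    rw [Module.natCard_eq_pow_finrank (K := ZMod 2), Nat.card_zmod]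
  have hV : Module.finrank (ZMod 2) V = 2 * n := by
    have h1 : Nat.card V = 2 ^ Module.finrank (ZMod 2) V := by
      rw [Module.natCard_eq_pow_finrank (K := ZMod 2), Nat.card_zmod]
    rw [hcard, h1, ← pow_succ] at hcV
    have := Nat.pow_right_injective (le_refl 2) hcV
    omega
  have hQ := M.nondeg
  have hplusval : ∀ v : Fin n ⊕ Fin n → ZMod 2, Qplus n (ZMod 2) v = Cfsg.quadFormPlus n (ZMod 2) v :=
    fun v => Qplus_apply n v
  constructor
  · rintro ⟨A, hA, hAc⟩
    have h1 : A ≤ M.preim (M.img A) := M.le_preim_img A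
    have h2 : Nat.card A ≤ Nat.card (M.preim (M.img A)) := Subgroup.card_le_of_le h1
    rw [M.card_preim, hAc, hcardpow, pow_succ, mul_comm] at h2
    have h3 : n ≤ Module.finrank (ZMod 2) (M.img A) :=
      (Nat.pow_le_pow_iff_right (by norm_num)).1 (Nat.le_of_mul_le_mul_left h2 (by norm_num))
    obtain ⟨U, hU, hUn⟩ := exists_sub_finrank n h3
    obtain ⟨θ, hθ⟩ := Cfsg.Agent.Lib.Known3.QuadIso.isometry_plus_of_ts hV Q hQ U hUn (fun u hu => M.ts_of_ea hA u (hU hu))
    exact out_std M (Qplus n (ZMod 2)) θ (fun v => by rw [hplusval, hθ]) _ (funext hplusval)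
  · intro hno
    rcases Cfsg.Agent.Lib.Known3.QuadIso.isometry_even hn hV Q hQ with ⟨θ, hθ⟩ | ⟨ζ, θ, hζ, hθ⟩
    · exfalso
      apply hno
      obtain ⟨U, hU, hUn⟩ := Cfsg.Agent.Lib.Known3.Witt.exists_singular_plus n (F := ZMod 2)
      let W : Submodule (ZMod 2) V := U.map (θ.symm : (Fin n ⊕ Fin n → ZMod 2) →ₗ[ZMod 2] V)
      have hW : ∀ u ∈ W, Q u = 0 := by
        rintro _ ⟨u, hu, rfl⟩
        rw [← hθ]
        change Cfsg.quadFormPlus n (ZMod 2) (θ (θ.symm u)) = 0
        rw [LinearEquiv.apply_symm_apply]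
        exact hU u hu
      refine ⟨M.preim W, M.ea_of_ts hW, ?_⟩
      rw [M.card_preim, hcardpow, pow_succ, mul_comm]
      have h3 : Module.finrank (ZMod 2) W = n := by
        rw [LinearEquiv.finrank_map_eq, hUn]
      rw [h3]
    · have hζ1 : ζ = 1 := by
        have key : ∀ ζ : ZMod 2, (∀ t : ZMod 2, t ^ 2 + t + ζ ≠ 0) → ζ = 1 := by decide
        exact key ζ hζ
      subst hζ1
      exact out_std M (Qminus (n - 1) (ZMod 2) 1 1) θ (fun v => by rw [Qminus_apply, hθ]) _
        (funext (Qminus_apply (n - 1) 1 1))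

end final

end Cfsg.Agent.Lib.LargeES.OutOrth
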