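import Cfsg.Agent.Lib.LargeES.SLn

/-!
# The centralizer of a translation in the holomorph of an elementary abelian 2-group
-/

set_option autoImplicit false

namespace Cfsg.Agent.Lib.LargeES.Holo

open Subgroup Cfsg Matrix
open Cfsg.Agent.Lib.PGroup (Heis)

variable {n : ℕ}

/-- The vector space. -/
abbrev VV (n : ℕ) : Type := ZMod 2 × (Fin n → ZMod 2)

/-- The automorphisms of the vector space. -/
abbrev AA (n : ℕ) : Type := VV n ≃ₗ[ZMod 2] VV n

/-- The matrix group. -/
abbrev GLL (n : ℕ) : Type := Matrix.GeneralLinearGroup (Fin n) (ZMod 2)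

theorem zmod2_cases (c : ZMod 2) : c = 0 ∨ c = 1 := by
  revert c
  decide

theorem two_eq (a : ZMod 2) : a + a = 0 := by
  revert a
  decide

theorem dot_two (a b : Fin n → ZMod 2) : a ⬝ᵥ b + a ⬝ᵥ b = 0 := two_eq _

/-- The transvection with direction the first coordinate. -/
def ta (a : Fin n → ZMod 2) : AA n where
  toFun v := (v.1 + a ⬝ᵥ v.2, v.2)
  invFun v := (v.1 + a ⬝ᵥ v.2, v.2)
  left_inv v := by
    ext
    · simp only [add_assoc, dot_two, add_zero]
    · rfl
  right_inv v := by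
    ext
    · simp only [add_assoc, dot_two, add_zero]
    · rfl
  map_add' v w := by
    ext
    · simp only [Prod.fst_add, Prod.snd_add, dotProduct_add]
      ring
    · rfl
  map_smul' r v := by
    ext1
    · simp only [Prod.smul_fst, Prod.smul_snd, dotProduct_smul, RingHom.id_apply, smul_eq_mul]
      ring
    · rfl

@[simp] theorem ta_apply (a : Fin n → ZMod 2) (v : VV n) : ta a v = (v.1 + a ⬝ᵥ v.2, v.2) := rfl

theorem ta_add (a b : Fin n → ZMod 2) : ta (a + b) = ta a * ta b := by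
  ext v
  · show v.1 + (a + b) ⬝ᵥ v.2 = v.1 + b ⬝ᵥ v.2 + a ⬝ᵥ v.2
    rw [add_dotProduct]
    ring
  · rfl

/-- The action of the matrix group. -/
def gl (g : GLL n) : AA n where
  toFun v := (v.1, (g : Matrix (Fin n) (Fin n) (ZMod 2)) *ᵥ v.2)
  invFun v := (v.1, ((g⁻¹ : GLL n) : Matrix (Fin n) (Fin n) (ZMod 2)) *ᵥ v.2)
  left_inv v := by
    ext1
    · rfl
    · simp [mulVec_mulVec]
  right_inv v := by
    ext1
    · rfl
    · simp [mulVec_mulVec]
  map_add' v w := by
    ext1
    · rfl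
    · simp [mulVec_add]
  map_smul' r v := by
    ext1
    · rfl
    · simp [mulVec_smul]

@[simp] theorem gl_apply (g : GLL n) (v : VV n) :
    gl g v = (v.1, (g : Matrix (Fin n) (Fin n) (ZMod 2)) *ᵥ v.2) := rfl

theorem gl_mul (g h : GLL n) : gl (g * h) = gl g * gl h := by
  ext1 v
  show (v.1, ((g * h : GLL n) : Matrix (Fin n) (Fin n) (ZMod 2)) *ᵥ v.2) =
    (v.1, (g : Matrix (Fin n) (Fin n) (ZMod 2)) *ᵥ ((h : Matrix (Fin n) (Fin n) (ZMod 2)) *ᵥ v.2))
  rw [mulVec_mulVec]
  rfl

theorem gl_one : gl (1 : GLL n) = 1 := by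
  ext1 v
  show (v.1, ((1 : GLL n) : Matrix (Fin n) (Fin n) (ZMod 2)) *ᵥ v.2) = v
  simp

/-- The first basic vector. -/
def e0 : VV n := (1, 0)

/-- The additive functionals on the coordinate space. -/
theorem add_functional (h : (Fin n → ZMod 2) →+ ZMod 2) (b : Fin n → ZMod 2) :
    h b = (fun j => h (Pi.single j 1)) ⬝ᵥ b := by
  have h1 := LinearMap.pi_apply_eq_sum_univ (AddMonoidHom.toZModLinearMap 2 h) b
  rw [AddMonoidHom.coe_toZModLinearMap] at h1
  rw [h1, dotProduct]
  apply Finset.sum_congr rfl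
  intro j _
  simp only [smul_eq_mul, mul_comm]
  congr 2
  ext i
  simp [Pi.single_apply, eq_comm]

/-- The automorphisms fixing the first basic vector. -/
def St (A : AA n) : Prop := A e0 = e0

theorem st_mul {A B : AA n} (hA : St A) (hB : St B) : St (A * B) := by
  show A (B e0) = e0
  rw [hB, hA]

theorem st_inv {A : AA n} (hA : St A) : St A⁻¹ := by
  have h1 := congrArg (A⁻¹ : AA n) hA
  have h2 : (A⁻¹ : AA n) (A e0) = e0 := by
    show (A⁻¹ * A) e0 = e0
    rw [inv_mul_cancel]
    rfl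
  exact (h2.symm.trans h1).symm

/-- The values on the second summand. -/
theorem st_apply_pair {A : AA n} (hA : St A) (c : ZMod 2) (b : Fin n → ZMod 2) :
    A (c, b) = (c + (A (0, b)).1, (A (0, b)).2) := by
  have h1 : ((c, b) : VV n) = (c, 0) + (0, b) := by
    ext1
    · simp
    · simp
  have h2 : A (c, 0) = (c, 0) := by
    have : c = 0 ∨ c = 1 := zmod2_cases c
    rcases this with h3 | h3
    · rw [h3]
      exact map_zero A
    · rw [h3]
      exact hA
  rw [h1, map_add, h2]
  ext1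
  · simp
  · simp

/-- The second coordinate of an automorphism. -/
def sndHom (A : AA n) (i : Fin n) : (Fin n → ZMod 2) →+ ZMod 2 where
  toFun b := (A (0, b)).2 i
  map_zero' := by
    have : ((0, 0) : VV n) = 0 := rfl
    rw [this, map_zero]
    rfl
  map_add' b c := by
    have : ((0, b + c) : VV n) = (0, b) + (0, c) := by
      ext1
      · simp
      · simp
    rw [this, map_add]
    rfl

/-- The first coordinate of an automorphism. -/
def fstHom (A : AA n) : (Fin n → ZMod 2) →+ ZMod 2 where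
  toFun b := (A (0, b)).1
  map_zero' := by
    have : ((0, 0) : VV n) = 0 := rfl
    rw [this, map_zero]
    rfl
  map_add' b c := by
    have : ((0, b + c) : VV n) = (0, b) + (0, c) := by
      ext1
      · simp
      · simp
    rw [this, map_add]
    rfl

/-- The lower right block of an automorphism. -/
def blk (A : AA n) : Matrix (Fin n) (Fin n) (ZMod 2) :=
  fun i j => (A (0, Pi.single j 1)).2 i

theorem snd_eq (A : AA n) (b : Fin n → ZMod 2) : (A (0, b)).2 = blk A *ᵥ b := by
  funext i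
  have h1 := add_functional (sndHom A i) b
  exact h1

theorem st_snd {A : AA n} (hA : St A) (v : VV n) : (A v).2 = blk A *ᵥ v.2 := by
  obtain ⟨c, b⟩ := v
  rw [st_apply_pair hA, ← snd_eq]

theorem st_fst {A : AA n} (hA : St A) (v : VV n) :
    (A v).1 = v.1 + (fun j => (A (0, Pi.single j 1)).1) ⬝ᵥ v.2 := by
  obtain ⟨c, b⟩ := v
  rw [st_apply_pair hA]
  show c + (A (0, b)).1 = _
  have h1 := add_functional (fstHom A) b
  show c + fstHom A b = _
  rw [h1]
  rfl

theorem blk_mul {A B : AA n} (hA : St A) : blk (A * B) = blk A * blk B := by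
  ext i j
  show (A (B (0, Pi.single j 1))).2 i = _
  rw [st_snd hA]
  rfl

theorem blk_one : blk (1 : AA n) = 1 := by
  ext i j
  show (Pi.single j (1 : ZMod 2) : Fin n → ZMod 2) i = _
  simp [Pi.single_apply, Matrix.one_apply]

/-- The block of an automorphism fixing the first basic vector is invertible. -/
def glOf (A : AA n) (hA : St A) : GLL n where
  val := blk A
  inv := blk A⁻¹
  val_inv := by
    rw [← blk_mul hA, mul_inv_cancel, blk_one]
  inv_val := by
    rw [← blk_mul (st_inv hA), inv_mul_cancel, blk_one]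

/-- The automorphisms trivial on the first summand and on the quotient. -/
def Pp (A : AA n) : Prop := St A ∧ ∀ v, (A v).2 = v.2

theorem pp_iff {A : AA n} : Pp A ↔ ∃ a, A = ta a := by
  constructor
  · rintro ⟨h1, h2⟩
    refine ⟨fun j => (A (0, Pi.single j 1)).1, ?_⟩
    ext1 v
    ext1
    · rw [st_fst h1]
      rfl
    · rw [h2]
      rfl
  · rintro ⟨a, rfl⟩
    refine ⟨?_, fun v => rfl⟩
    show ((1 : ZMod 2) + a ⬝ᵥ (0 : Fin n → ZMod 2), (0 : Fin n → ZMod 2)) = e0
    simp [e0]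

theorem st_ta (a : Fin n → ZMod 2) : St (ta a) := (pp_iff.2 ⟨a, rfl⟩).1

theorem st_gl (g : GLL n) : St (gl g) := by
  show ((1 : ZMod 2), (g : Matrix (Fin n) (Fin n) (ZMod 2)) *ᵥ (0 : Fin n → ZMod 2)) = e0
  simp [e0]

theorem blk_gl (g : GLL n) : blk (gl g) = g := by
  ext i j
  show ((g : Matrix (Fin n) (Fin n) (ZMod 2)) *ᵥ (Pi.single j 1)) i = _
  simp

theorem ta_eq_one {a : Fin n → ZMod 2} (h : ta a = 1) : a = 0 := by
  apply Heis.dot_left_eq_zero (p := 2)
  intro b
  have h1 := congrArg (fun A : AA n => (A (0, b)).1) h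
  simpa using h1

theorem gl_eq_one {g : GLL n} (h : gl g = 1) : g = 1 := by
  apply Units.ext
  have h1 := blk_gl g
  rw [h, blk_one] at h1
  exact h1.symm

/-- `B A B⁻¹` is again trivial on the quotient. -/
theorem pp_conj {A B : AA n} (hA : Pp A) (hB : St B) : Pp (B * A * B⁻¹) := by
  refine ⟨st_mul (st_mul hB hA.1) (st_inv hB), fun v => ?_⟩
  show (B (A (B⁻¹ v))).2 = v.2
  rw [st_snd hB, hA.2, ← st_snd hB]
  have : B (B⁻¹ v) = (B * B⁻¹) v := rfl
  rw [this, mul_inv_cancel]
  rfl

/-- The decomposition. -/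
theorem st_decomp {A : AA n} (hA : St A) : ∃ a g, A = ta a * gl g := by
  have h1 : Pp (A * (gl (glOf A hA))⁻¹) := by
    refine ⟨st_mul hA (st_inv (st_gl _)), fun v => ?_⟩
    show (A ((gl (glOf A hA))⁻¹ v)).2 = v.2
    rw [st_snd hA]
    have h2 := st_snd (st_gl (glOf A hA)) ((gl (glOf A hA))⁻¹ v)
    have h3 : gl (glOf A hA) ((gl (glOf A hA))⁻¹ v) = (gl (glOf A hA) * (gl (glOf A hA))⁻¹) v := rfl
    rw [h3, mul_inv_cancel, blk_gl] at h2
    exact h2.symm
  obtain ⟨a, ha⟩ := pp_iff.1 h1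
  exact ⟨a, glOf A hA, by rw [← ha, inv_mul_cancel_right]⟩

/-- The data of a holomorph of an elementary abelian group. -/
structure Data (G : Type*) [Group G] (n : ℕ) where
  ι : VV n → G
  hadd : ∀ v w, ι (v + w) = ι v * ι w
  hinj : Function.Injective ι
  act : G →* AA n
  hact : ∀ x v, x * ι v * x⁻¹ = ι (act x v)
  hker : ∀ x, act x = 1 → ∃ v, x = ι v
  sec : AA n →* G
  hsec : ∀ A, act (sec A) = A

namespace Data

variable {G : Type*} [Group G] (D : Data G n)

theorem ι_zero : D.ι 0 = 1 := by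
  have h := D.hadd 0 0
  rw [add_zero] at h
  exact (mul_eq_left.1 h.symm)

theorem ι_sq (v : VV n) : D.ι v * D.ι v = 1 := by
  rw [← D.hadd]
  have : v + v = 0 := by
    ext1
    · exact two_eq _
    · funext i
      exact two_eq _
  rw [this, ι_zero]

theorem ι_comm (v w : VV n) : D.ι v * D.ι w = D.ι w * D.ι v := by
  rw [← D.hadd, ← D.hadd, add_comm]

theorem act_ι (v : VV n) : D.act (D.ι v) = 1 := by
  ext1 w
  apply D.hinj
  rw [← D.hact, ι_comm, mul_inv_cancel_right]
  rfl

/-- The central involution. -/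
def z : G := D.ι e0

theorem comm_z_iff {x : G} : x * D.z = D.z * x ↔ St (D.act x) := by
  constructor
  · intro h
    apply D.hinj
    rw [← D.hact]
    show x * D.z * x⁻¹ = D.z
    rw [h, mul_inv_cancel_right]
  · intro h
    have h1 := D.hact x e0
    rw [h] at h1
    rw [← mul_inv_eq_iff_eq_mul]
    exact h1

/-- The extraspecial group maps in. -/
def phi : Heis 2 n →* G where
  toFun x := D.ι (x.c, x.b) * D.sec (ta x.a)
  map_one' := by
    show D.ι (0, 0) * D.sec (ta 0) = 1
    have h1 : ta (0 : Fin n → ZMod 2) = 1 := by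
      ext1 v
      ext1
      · simp
      · rfl
    rw [h1, map_one, mul_one]
    exact D.ι_zero
  map_mul' x y := by
    show D.ι (x.c + y.c + x.a ⬝ᵥ y.b, x.b + y.b) * D.sec (ta (x.a + y.a)) = _
    rw [ta_add, map_mul]
    have h1 := D.hact (D.sec (ta x.a)) (y.c, y.b)
    rw [D.hsec, ta_apply] at h1
    have h2 : ((x.c + y.c + x.a ⬝ᵥ y.b, x.b + y.b) : VV n) =
        (x.c, x.b) + (y.c + x.a ⬝ᵥ y.b, y.b) := by
      ext1
      · show x.c + y.c + x.a ⬝ᵥ y.b = x.c + (y.c + x.a ⬝ᵥ y.b)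
        ring
      · rfl
    rw [h2, D.hadd]
    show _ = D.ι (x.c, x.b) * D.sec (ta x.a) * (D.ι (y.c, y.b) * D.sec (ta y.a))
    have h3 : D.ι (y.c + x.a ⬝ᵥ y.b, y.b) =
        D.sec (ta x.a) * D.ι (y.c, y.b) * (D.sec (ta x.a))⁻¹ := h1.symm
    rw [h3]
    group

theorem phi_apply (x : Heis 2 n) : D.phi x = D.ι (x.c, x.b) * D.sec (ta x.a) := rfl

theorem act_phi (x : Heis 2 n) : D.act (D.phi x) = ta x.a := by
  rw [phi_apply, map_mul, act_ι, one_mul, D.hsec]

theorem phi_injective : Function.Injective D.phi := by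
  rw [injective_iff_map_eq_one]
  intro x hx
  have h1 := D.act_phi x
  rw [hx, map_one] at h1
  have h2 : x.a = 0 := ta_eq_one h1.symm
  have h3 : ta x.a = 1 := h1.symm
  rw [phi_apply, h3, map_one, mul_one, ← D.ι_zero] at hx
  have h4 := D.hinj hx
  ext i
  · rw [h2]
    rfl
  · exact congrFun (congrArg Prod.snd h4) i
  · exact congrArg Prod.fst h4

/-- The extraspecial subgroup. -/
def Q : Subgroup G := D.phi.range

theorem mem_Q {x : G} : x ∈ D.Q ↔ Pp (D.act x) := by
  constructor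
  · rintro ⟨y, rfl⟩
    rw [act_phi]
    exact pp_iff.2 ⟨_, rfl⟩
  · intro h
    obtain ⟨a, ha⟩ := pp_iff.1 h
    have h1 : D.act (x * (D.sec (ta a))⁻¹) = 1 := by
      rw [map_mul, map_inv, D.hsec, ha, mul_inv_cancel]
    obtain ⟨v, hv⟩ := D.hker _ h1
    refine ⟨⟨a, v.2, v.1⟩, ?_⟩
    rw [phi_apply]
    show D.ι v * _ = x
    rw [← hv, inv_mul_cancel_right]

theorem ι_mem_Q (v : VV n) : D.ι v ∈ D.Q := by
  rw [mem_Q, act_ι]
  exact pp_iff.2 ⟨0, by
    ext1 w
    ext1
    · simp
    · rfl⟩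

/-- The complement. -/
def ess : GLL n →* G := D.sec.comp ⟨⟨gl, gl_one⟩, gl_mul⟩

theorem ess_apply (g : GLL n) : D.ess g = D.sec (gl g) := rfl

theorem act_ess (g : GLL n) : D.act (D.ess g) = gl g := D.hsec _

theorem ess_injective : Function.Injective D.ess := by
  rw [injective_iff_map_eq_one]
  intro g hg
  have h1 := D.act_ess g
  rw [hg, map_one] at h1
  exact gl_eq_one h1.symm

/-- The complement. -/
def K : Subgroup G := D.ess.range

theorem K_comm {k : G} (hk : k ∈ D.K) : k * D.z = D.z * k := by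
  obtain ⟨g, rfl⟩ := hk
  rw [comm_z_iff, act_ess]
  exact st_gl g

theorem Q_comm {q : G} (hq : q ∈ D.Q) : q * D.z = D.z * q :=
  comm_z_iff D |>.2 ((mem_Q D).1 hq).1

theorem hprod (c : G) (hc : c * D.z = D.z * c) : ∃ q ∈ D.Q, ∃ k ∈ D.K, c = q * k := by
  obtain ⟨a, g, h⟩ := st_decomp ((comm_z_iff D).1 hc)
  refine ⟨c * (D.ess g)⁻¹, ?_, D.ess g, ⟨g, rfl⟩, by group⟩
  rw [mem_Q, map_mul, map_inv, act_ess, h, mul_inv_cancel_right]
  exact pp_iff.2 ⟨a, rfl⟩

theorem hnorm (c : G) (hc : c * D.z = D.z * c) (q : G) (hq : q ∈ D.Q) : c * q * c⁻¹ ∈ D.Q := by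
  rw [mem_Q] at hq ⊢
  rw [map_mul, map_mul, map_inv]
  exact pp_conj hq ((comm_z_iff D).1 hc)

theorem hC (c : G) (h : ∀ q ∈ D.Q, c * q = q * c) : c ∈ D.Q := by
  have h1 : D.act c = 1 := by
    ext1 v
    apply D.hinj
    rw [← D.hact, h _ (D.ι_mem_Q v), mul_inv_cancel_right]
    rfl
  obtain ⟨v, rfl⟩ := D.hker c h1
  exact D.ι_mem_Q v

theorem inf_eq : D.Q ⊓ D.K = ⊥ := by
  rw [eq_bot_iff]
  rintro x ⟨hx, g, rfl⟩
  replace hx : Pp (D.act (D.ess g)) := (mem_Q D).1 hx
  rw [act_ess] at hx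
  have h1 := blk_gl g
  have h2 : blk (gl g) = 1 := by
    ext i j
    show (gl g (0, Pi.single j 1)).2 i = _
    rw [hx.2]
    show (Pi.single j (1 : ZMod 2) : Fin n → ZMod 2) i = _
    simp [Pi.single_apply, Matrix.one_apply]
  have h3 : g = 1 := Units.ext (h1.symm.trans h2)
  rw [h3, map_one]
  exact Subgroup.one_mem _

theorem Q_le : D.Q ≤ centralizer ({D.z} : Set G) := fun _ hq =>
  Subgroup.mem_centralizer_singleton_iff.2 (D.Q_comm hq)

theorem K_le : D.K ≤ centralizer ({D.z} : Set G) := fun _ hq =>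
  Subgroup.mem_centralizer_singleton_iff.2 (D.K_comm hq)

theorem sup_eq : D.Q ⊔ D.K = centralizer ({D.z} : Set G) := by
  apply le_antisymm (sup_le D.Q_le D.K_le)
  intro c hc
  rw [Subgroup.mem_centralizer_singleton_iff] at hc
  obtain ⟨q, hq, k, hk, rfl⟩ := D.hprod c hc
  exact Subgroup.mul_mem_sup hq hk

theorem hodd [Finite G] (K₀ : Subgroup G) (hK : Odd (Nat.card K₀))
    (h : ∀ u ∈ D.Q, ∀ k ∈ K₀, u * k * u⁻¹ ∈ K₀) : K₀ = ⊥ := by
  -- involutions do not lie in `K₀`
  have h2 : ∀ v, D.ι v ∈ K₀ → D.ι v = 1 := by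
    intro v hv
    have h3 : orderOf (⟨D.ι v, hv⟩ : K₀) ∣ 2 := by
      apply orderOf_dvd_of_pow_eq_one
      apply Subtype.ext
      show D.ι v ^ 2 = 1
      rw [pow_two, ι_sq]
    have h4 : Odd (orderOf (⟨D.ι v, hv⟩ : K₀)) := hK.of_dvd_nat (orderOf_dvd_natCard _)
    have h5 : orderOf (⟨D.ι v, hv⟩ : K₀) = 1 := by
      rcases (Nat.dvd_prime Nat.prime_two).1 h3 with h6 | h6
      · exact h6
      · rw [h6] at h4
        exact absurd h4 (by decide)
    have h6 := orderOf_eq_one_iff.1 h5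
    exact congrArg Subtype.val h6
  rw [eq_bot_iff]
  intro k hk
  rw [Subgroup.mem_bot]
  have h3 : D.act k = 1 := by
    ext1 v
    -- the commutator lies in `K₀` and in the image of `ι`
    have h4 : D.ι v * k * (D.ι v)⁻¹ * k⁻¹ ∈ K₀ := mul_mem (h _ (D.ι_mem_Q v) k hk) (inv_mem hk)
    have h5 : D.ι v * k * (D.ι v)⁻¹ * k⁻¹ = D.ι (v + D.act k v) := by
      rw [D.hadd, ← D.hact]
      have : (D.ι v)⁻¹ = D.ι v := inv_eq_of_mul_eq_one_left (D.ι_sq v)
      rw [this]
      group
    rw [h5] at h4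
    have h6 := h2 _ h4
    rw [← D.ι_zero] at h6
    have h7 := D.hinj h6
    have h8 : v + D.act k v + D.act k v = D.act k v := by
      rw [h7, zero_add]
    have h9 : D.act k v + D.act k v = 0 := by
      ext1
      · exact two_eq _
      · funext i
        exact two_eq _
    rw [add_assoc, h9, add_zero] at h8
    exact h8.symm
  obtain ⟨v, rfl⟩ := D.hker k h3
  exact h2 v hk

theorem z_sq : D.z * D.z = 1 := D.ι_sq _

theorem z_ne_one : D.z ≠ 1 := by
  intro h
  have h1 : D.ι e0 = D.ι 0 := h.trans D.ι_zero.symm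
  have h2 : (1 : ZMod 2) = 0 := congrArg Prod.fst (D.hinj h1)
  exact absurd h2 (by decide)

theorem order_z : orderOf D.z = 2 := by
  have : Fact (Nat.Prime 2) := ⟨Nat.prime_two⟩
  apply orderOf_eq_prime
  · rw [pow_two, z_sq]
  · exact D.z_ne_one

theorem z_mem : D.z ∈ D.Q := D.ι_mem_Q _

section Finite

variable [Finite G]

theorem isExtra (hn : 1 ≤ n) : IsExtraspecial 2 ↥D.Q := by
  have : Fact (Nat.Prime 2) := ⟨Nat.prime_two⟩
  exact Cfsg.Agent.Lib.LargeES.isExtraspecial_congr
    (MonoidHom.ofInjective D.phi_injective) (Heis.isExtraspecial hn)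

theorem card_Q : Nat.card ↥D.Q = 2 ^ (2 * n + 1) := by
  have : Fact (Nat.Prime 2) := ⟨Nat.prime_two⟩
  show Nat.card ↥D.phi.range = _
  rw [← Nat.card_congr (MonoidHom.ofInjective D.phi_injective).toEquiv, Heis.card_eq, add_comm]

theorem hZ (hn : 1 ≤ n) : (center ↥D.Q).map D.Q.subtype = zpowers D.z := by
  have : Fact (Nat.Prime 2) := ⟨Nat.prime_two⟩
  symm
  apply Subgroup.eq_of_le_of_card_ge
  · rw [zpowers_le]
    refine ⟨⟨D.z, D.z_mem⟩, ?_, rfl⟩
    rw [SetLike.mem_coe, Subgroup.mem_center_iff]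
    intro q
    apply Subtype.ext
    show q.1 * D.z = D.z * q.1
    exact D.Q_comm q.2
  · rw [Nat.card_zpowers, D.order_z, Subgroup.card_map_of_injective D.Q.subtype_injective]
    exact (D.isExtra hn).2.le

end Finite

end Data

/-! ### The general linear group has no normal 2-subgroups -/

/-- Over the field with two elements the general and special linear groups coincide. -/
def glEquiv (n : ℕ) : Matrix.SpecialLinearGroup (Fin n) (ZMod 2) ≃* GLL n where
  toFun g := ⟨g.1, (g⁻¹).1, congrArg Subtype.val (mul_inv_cancel g),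
    congrArg Subtype.val (inv_mul_cancel g)⟩
  invFun u := ⟨u.1, Cfsg.Agent.Lib.LargeES.SLn.det_eq_one_of_mul u.val_inv⟩
  left_inv _ := rfl
  right_inv _ := Units.ext rfl
  map_mul' _ _ := Units.ext rfl

theorem normal_two_transport {A B : Type*} [Group A] [Group B] (e : A ≃* B)
    (hA : ∀ N : Subgroup A, N.Normal → IsPGroup 2 N → N = ⊥)
    (N : Subgroup B) (hN : N.Normal) (hp : IsPGroup 2 N) : N = ⊥ := by
  have h1 : (N.comap e.toMonoidHom).Normal := hN.comap _
  have h2 : IsPGroup 2 (N.comap e.toMonoidHom) := by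
    intro x
    obtain ⟨k, hk⟩ := hp ⟨e x.1, x.2⟩
    refine ⟨k, ?_⟩
    have h3 : e (x.1 ^ 2 ^ k) = 1 := by
      rw [map_pow]
      exact congrArg Subtype.val hk
    exact Subtype.ext (e.injective (h3.trans (map_one _).symm))
  have h3 := hA _ h1 h2
  rw [eq_bot_iff]
  intro x hx
  rw [Subgroup.mem_bot]
  have h4 : e.symm x ∈ N.comap e.toMonoidHom := by
    show e (e.symm x) ∈ N
    simpa using hx
  rw [h3, Subgroup.mem_bot] at h4
  have h5 := congrArg e h4
  simpa using h5

theorem Data.hK2 {G : Type*} [Group G] (D : Data G n) (N : Subgroup ↥D.K) (hN : N.Normal)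
    (hp : IsPGroup 2 N) : N = ⊥ := by
  refine normal_two_transport (MonoidHom.ofInjective D.ess_injective) ?_ N hN hp
  exact fun N' hN' hp' =>
    normal_two_transport (glEquiv n) Cfsg.Agent.Lib.LargeES.SLn.normal_two_eq_bot N' hN' hp'

theorem Data.main {G : Type*} [Group G] [Finite G] (D : Data G n) (hn : 1 ≤ n) :
    D.Q = (pCore 2 ↥(centralizer ({D.z} : Set G))).map (centralizer ({D.z} : Set G)).subtype ∧
      IsLargeExtraspecial D.Q :=
  large_of_split' D.order_z D.K_le D.hprod D.hnorm (D.isExtra hn) (D.hZ hn) D.hC D.hK2 D.hodd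

/-! ### Coordinates -/

/-- Coordinates on an elementary abelian group with a prescribed first basic vector. -/
theorem exists_coords {A : Type*} [CommGroup A] [Finite A] (h2 : ∀ a : A, a * a = 1)
    (hcard : Nat.card A = 2 ^ (n + 1)) (z : A) (hz : z ≠ 1) :
    ∃ ψ : Multiplicative (VV n) ≃* A, ψ (Multiplicative.ofAdd e0) = z := by
  classical
  have : Fact (Nat.Prime 2) := ⟨Nat.prime_two⟩
  let _ : Module (ZMod 2) (Additive A) := AddCommGroup.zmodModule (fun x => by
    show (2 : ℕ) • x = 0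
    rw [two_nsmul]
    exact h2 (Additive.toMul x))
  have : Finite (Additive A) := inferInstanceAs (Finite A)
  have : Module.Finite (ZMod 2) (Additive A) := Module.Finite.of_finite
  have hf : Module.finrank (ZMod 2) (Additive A) = n + 1 := by
    have h3 := Module.natCard_eq_pow_finrank (K := ZMod 2) (V := Additive A)
    have h4 : Nat.card (Additive A) = 2 ^ (n + 1) := hcard
    rw [h4, Nat.card_zmod] at h3
    exact (Nat.pow_right_injective (le_refl 2) h3).symm
  have hf2 : Module.finrank (ZMod 2) (Fin (n + 1) → ZMod 2) = n + 1 := by simp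
  let L : Additive A ≃ₗ[ZMod 2] (Fin (n + 1) → ZMod 2) := LinearEquiv.ofFinrankEq _ _ (hf.trans hf2.symm)
  have hLz : L (Additive.ofMul z) ≠ 0 := by
    intro h
    have h3 := L.injective (h.trans (map_zero L).symm)
    exact hz h3
  have h01 : (Pi.single 0 1 : Fin (n + 1) → ZMod 2) ≠ 0 := by
    intro h
    have := congrFun h 0
    simp at this
  obtain ⟨g, hg⟩ := Cfsg.Agent.Lib.LargeES.SLn.exists_sl_move hLz h01
  -- the linear equivalence
  let Mg : (Fin (n + 1) → ZMod 2) ≃ₗ[ZMod 2] (Fin (n + 1) → ZMod 2) :=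
    Matrix.toLin'OfInv (M := (g⁻¹).1) (M' := g.1) (congrArg Subtype.val (inv_mul_cancel g))
      (congrArg Subtype.val (mul_inv_cancel g))
  let Cc : (Fin (n + 1) → ZMod 2) ≃ₗ[ZMod 2] VV n :=
    (Fin.consLinearEquiv (ZMod 2) (fun _ : Fin (n + 1) => ZMod 2)).symm
  let F : Additive A ≃ₗ[ZMod 2] VV n := (L.trans Mg).trans Cc
  have hF : F (Additive.ofMul z) = e0 := by
    show Cc (Mg (L (Additive.ofMul z))) = e0
    have h3 : Mg (L (Additive.ofMul z)) = Pi.single 0 1 := by
      rw [← hg]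
      exact Matrix.toLin'_apply g.1 _
    rw [h3]
    ext1
    · simp [Cc, e0, Fin.consLinearEquiv]
    · funext i
      simp [Cc, e0, Fin.consLinearEquiv, Fin.tail]
  refine ⟨{ toFun := fun v => Additive.toMul (F.symm (Multiplicative.toAdd v))
            invFun := fun a => Multiplicative.ofAdd (F (Additive.ofMul a))
            left_inv := fun v => by simp
            right_inv := fun a => by simp
            map_mul' := fun v w => by simp }, ?_⟩
  show Additive.toMul (F.symm e0) = z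
  rw [← hF]
  simp

/-! ### From a complement to the data -/

section Build

variable {G : Type*} [Group G] {U M : Subgroup G} [hUn : U.Normal]

/-- An automorphism of `U` gives a linear automorphism. -/
def toAA (ψ : Multiplicative (VV n) ≃* U) (φ : U ≃* U) : AA n where
  toFun v := Multiplicative.toAdd (ψ.symm (φ (ψ (Multiplicative.ofAdd v))))
  invFun v := Multiplicative.toAdd (ψ.symm (φ.symm (ψ (Multiplicative.ofAdd v))))
  left_inv v := by simp
  right_inv v := by simp
  map_add' v w := by simp [ofAdd_add]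
  map_smul' c v := by
    rcases zmod2_cases c with rfl | rfl
    · simp
    · simp

/-- A linear automorphism gives an automorphism of `U`. -/
def ofAA (ψ : Multiplicative (VV n) ≃* U) (A : AA n) : U ≃* U where
  toFun u := ψ (Multiplicative.ofAdd (A (Multiplicative.toAdd (ψ.symm u))))
  invFun u := ψ (Multiplicative.ofAdd (A.symm (Multiplicative.toAdd (ψ.symm u))))
  left_inv u := by simp
  right_inv u := by simp
  map_mul' u w := by simp [ofAdd_add]

/-- The action of the group. -/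
def actHom (ψ : Multiplicative (VV n) ≃* U) : G →* AA n where
  toFun x := toAA ψ (MulAut.conjNormal x)
  map_one' := by
    ext1 v
    simp [toAA]
  map_mul' x y := by
    ext1 v
    simp [toAA]

/-- The function from the vector space. -/
def iota (ψ : Multiplicative (VV n) ≃* U) (v : VV n) : G := (ψ (Multiplicative.ofAdd v) : U)

theorem iota_add (ψ : Multiplicative (VV n) ≃* U) (v w : VV n) :
    iota ψ (v + w) = iota ψ v * iota ψ w := by
  simp [iota, ofAdd_add]

theorem iota_inj (ψ : Multiplicative (VV n) ≃* U) : Function.Injective (iota ψ : VV n → G) := by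
  intro v w h
  have h1 := ψ.injective (Subtype.ext h)
  exact Multiplicative.ofAdd.injective h1

theorem iota_act (ψ : Multiplicative (VV n) ≃* U) (x : G) (v : VV n) :
    x * iota ψ v * x⁻¹ = iota ψ (actHom ψ x v) := by
  simp [iota, actHom, toAA]

theorem exists_iota (ψ : Multiplicative (VV n) ≃* U) {u : G} (hu : u ∈ U) : ∃ v, u = iota ψ v :=
  ⟨Multiplicative.toAdd (ψ.symm ⟨u, hu⟩), by simp [iota]⟩

theorem iota_mem (ψ : Multiplicative (VV n) ≃* U) (v : VV n) : iota ψ v ∈ U :=
  (ψ (Multiplicative.ofAdd v)).2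

theorem act_eq_one_iff (ψ : Multiplicative (VV n) ≃* U) {x : G} :
    actHom ψ x = 1 ↔ ∀ u ∈ U, x * u * x⁻¹ = u := by
  constructor
  · intro h u hu
    obtain ⟨v, rfl⟩ := exists_iota ψ hu
    rw [iota_act, h]
    rfl
  · intro h
    ext1 v
    apply iota_inj ψ
    rw [← iota_act, h _ (iota_mem ψ v)]
    rfl

/-- The section. -/
theorem exists_sec (ψ : Multiplicative (VV n) ≃* U)
    (hfull : ∀ φ : ↥U ≃* ↥U, ∃ m ∈ M, ∀ u : ↥U, ((φ u : ↥U) : G) = m * u * m⁻¹) (A : AA n) :
    ∃ m ∈ M, actHom ψ m = A := by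
  obtain ⟨m, hm, h⟩ := hfull (ofAA ψ A)
  refine ⟨m, hm, ?_⟩
  ext1 v
  apply iota_inj ψ
  rw [← iota_act]
  have h1 := h (ψ (Multiplicative.ofAdd v))
  exact h1.symm.trans (by simp [ofAA, iota])

/-- The data from the complement. -/
theorem exists_data (ψ : Multiplicative (VV n) ≃* U)
    (hUM' : U ⊔ M = ⊤) (hfaith : ∀ m ∈ M, (∀ u ∈ U, m * u * m⁻¹ = u) → m = 1)
    (hfull : ∀ φ : ↥U ≃* ↥U, ∃ m ∈ M, ∀ u : ↥U, ((φ u : ↥U) : G) = m * u * m⁻¹) :
    ∃ D : Data G n, D.ι = iota ψ := by
  classical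
  choose s hs hs' using exists_sec ψ hfull
  have hfaith' : ∀ m ∈ M, actHom ψ m = 1 → m = 1 := fun m hm h =>
    hfaith m hm ((act_eq_one_iff ψ).1 h)
  have hsmul : ∀ A B, s (A * B) = s A * s B := by
    intro A B
    have h1 := hfaith' ((s (A * B))⁻¹ * (s A * s B))
      (mul_mem (inv_mem (hs _)) (mul_mem (hs _) (hs _))) (by
        rw [map_mul, map_inv, map_mul, hs', hs', hs', inv_mul_cancel])
    exact (inv_mul_eq_one.1 h1)
  refine ⟨{ ι := iota ψ
            hadd := iota_add ψ
            hinj := iota_inj ψ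
            act := actHom ψ
            hact := iota_act ψ
            hker := ?_
            sec := MonoidHom.mk' s hsmul
            hsec := hs' }, rfl⟩
  intro x hx
  have hxt : x ∈ U ⊔ M := by
    rw [hUM']
    exact Subgroup.mem_top x
  obtain ⟨u, hu, m, hm, rfl⟩ := Subgroup.mem_sup_of_normal_left.1 hxt
  have h1 : actHom ψ m = 1 := by
    have h2 := (act_eq_one_iff ψ).2 (fun w hw => by
      obtain ⟨v, rfl⟩ := exists_iota ψ hu
      obtain ⟨v', rfl⟩ := exists_iota ψ hw
      rw [← iota_add, add_comm, iota_add, mul_inv_cancel_right] : ∀ w ∈ U, u * w * u⁻¹ = w)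
    rw [map_mul, h2, one_mul] at hx
    exact hx
  rw [hfaith' m hm h1, mul_one]
  exact exists_iota ψ hu

theorem exists_coords' [Finite G] (hU : IsElementaryAbelian 2 U) (hcard : Nat.card U = 2 ^ (n + 1))
    {z : G} (hz : z ∈ U) (hne : z ≠ 1) :
    ∃ ψ : Multiplicative (VV n) ≃* U, iota ψ e0 = z := by
  have hc : ∀ a b : U, a * b = b * a := fun a b => hU.1.is_comm.comm a b
  letI : CommGroup U := { (inferInstance : Group U) with mul_comm := hc }
  obtain ⟨ψ, h⟩ := exists_coords (n := n) (A := U) (fun a => by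
    apply Subtype.ext
    have := hU.2 a.1 a.2
    rw [pow_two] at this
    exact this) hcard ⟨z, hz⟩ (fun h => hne (congrArg Subtype.val h))
  exact ⟨ψ, congrArg Subtype.val h⟩

end Build

end Cfsg.Agent.Lib.LargeES.Holo
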