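import Mathlib
import Cfsg.Agent.Lib.LargeES.Simple

/-!
# Large extraspecial subgroups of a quotient by a central involution
-/

set_option autoImplicit false

namespace Cfsg.Agent.Lib.LargeES

open Subgroup Cfsg Cfsg.Agent.Lib.Cl Cfsg.Agent.Lib.ThreeT
open scoped commutatorElement

theorem center_map_of_facts {G : Type*} [Group G] [Finite G] {Q : Subgroup G} {z : G} (hf : ExtraFacts Q z) :
    (center ↥Q).map Q.subtype = zpowers z := by
  apply le_antisymm
  · rintro _ ⟨c, hc, rfl⟩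
    have h : (c : G) ∈ Q ⊓ centralizer (Q : Set G) := ⟨c.2, Subgroup.mem_centralizer_iff.mpr fun q hq =>
      (congrArg Subtype.val (Subgroup.mem_center_iff.mp hc ⟨q, hq⟩))⟩
    rwa [hf.hcent] at h
  · rw [Subgroup.zpowers_le]
    refine ⟨⟨z, hf.hzQ⟩, Subgroup.mem_center_iff.mpr ?_, rfl⟩
    rintro ⟨q, hq⟩
    exact Subtype.ext (hf.central (mem_zpowers z) hq).symm

/-- The data of a large extraspecial subgroup in a quotient by a central involution. -/
structure QuotTwo {X Y : Type*} [Group X] [Group Y] (π : X →* Y) (t : X) (P : Subgroup X) (z : X) : Prop where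
  hsurj : Function.Surjective π
  hker : ∀ a, π a = 1 ↔ a = 1 ∨ a = t
  hzz : z * z = 1
  hz1 : z ≠ 1
  hzt : z ≠ t
  hzP : z ∈ P
  hzc : ∀ p ∈ P, p * z = z * p
  hcom : ∀ a ∈ P, ∀ b ∈ P, ⁅a, b⁆ = 1 ∨ ⁅a, b⁆ = z
  hsq : ∀ a ∈ P, a * a = 1 ∨ a * a = z
  hcen : ∀ a ∈ P, (∀ b ∈ P, a * b = b * a) → a = 1 ∨ a = t ∨ a = z ∨ a = t * z
  hnot : ∀ c, c * z * c⁻¹ ≠ z * t
  hN : ∀ c, c * z = z * c → ∀ p ∈ P, c * p * c⁻¹ ∈ P
  hC : ∀ c, c * z = z * c → (∀ p ∈ P, c * p * c⁻¹ = p ∨ c * p * c⁻¹ = p * t) → c ∈ P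

namespace QuotTwo

variable {X Y : Type*} [Group X] [Group Y] [Finite X] [Finite Y] {π : X →* Y} {t : X} {P : Subgroup X} {z : X}
  (D : QuotTwo π t P z)
include D

theorem pi_t : π t = 1 := (D.hker t).2 (Or.inr rfl)

theorem pi_z_ne : π z ≠ 1 := fun h => by
  rcases (D.hker z).1 h with h | h
  · exact D.hz1 h
  · exact D.hzt h

theorem facts : ExtraFacts (P.map π) (π z) := by
  refine ⟨orderOf_eq_prime (by rw [pow_two, ← map_mul, D.hzz, map_one]) D.pi_z_ne, ⟨z, D.hzP, rfl⟩, ?_, ?_, ?_⟩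
  · apply le_antisymm
    · rintro y ⟨⟨a, ha, rfl⟩, hy⟩
      have hcomm : ∀ b ∈ P, a * b = b * a := by
        intro b hb
        have h1 : π a * π b = π b * π a := (Subgroup.mem_centralizer_iff.mp hy (π b) ⟨b, hb, rfl⟩).symm
        have h2 : π ⁅a, b⁆ = 1 := by
          rw [map_commutatorElement]
          exact commutatorElement_eq_one_iff_mul_comm.mpr h1
        rcases D.hcom a ha b hb with h3 | h3
        · exact commutatorElement_eq_one_iff_mul_comm.mp h3
        · rw [h3] at h2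
          exact absurd h2 D.pi_z_ne
      rcases D.hcen a ha hcomm with rfl | rfl | rfl | rfl
      · rw [map_one]; exact one_mem _
      · rw [D.pi_t]; exact one_mem _
      · exact mem_zpowers _
      · rw [map_mul, D.pi_t, one_mul]; exact mem_zpowers _
    · rw [Subgroup.zpowers_le]
      refine ⟨⟨z, D.hzP, rfl⟩, Subgroup.mem_centralizer_iff.mpr ?_⟩
      rintro _ ⟨p, hp, rfl⟩
      show π p * π z = π z * π p
      rw [← map_mul, ← map_mul, D.hzc p hp]
  · rintro _ ⟨a, ha, rfl⟩ _ ⟨b, hb, rfl⟩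
    show ⁅π a, π b⁆ ∈ _
    rw [← map_commutatorElement]
    rcases D.hcom a ha b hb with h | h <;> rw [h]
    · rw [map_one]; exact one_mem _
    · exact mem_zpowers _
  · rintro _ ⟨a, ha, rfl⟩
    show π a * π a ∈ _
    rw [← map_mul]
    rcases D.hsq a ha with h | h <;> rw [h]
    · rw [map_one]; exact one_mem _
    · exact mem_zpowers _

theorem comm_of_pi {c : X} (h : π c * π z = π z * π c) : c * z = z * c := by
  have h1 : π (z⁻¹ * (c * z * c⁻¹)) = 1 := by
    rw [map_mul, map_mul, map_mul, map_inv, map_inv, h]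
    group
  rcases (D.hker _).1 h1 with h2 | h2
  · have : c * z * c⁻¹ = z := by
      have h3 : c * z * c⁻¹ = z * (z⁻¹ * (c * z * c⁻¹)) := by group
      rw [h3, h2, mul_one]
    calc c * z = (c * z * c⁻¹) * c := by group
      _ = z * c := by rw [this]
  · exfalso
    apply D.hnot c
    have h3 : c * z * c⁻¹ = z * (z⁻¹ * (c * z * c⁻¹)) := by group
    rw [h3, h2]

theorem largeHyp : LargeHyp (P.map π) (π z) := by
  refine ⟨D.facts, ?_, ?_⟩
  · intro c hc q hq
    obtain ⟨c, rfl⟩ := D.hsurj c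
    obtain ⟨p, hp, rfl⟩ := hq
    have hcz := D.comm_of_pi (by rw [hc])
    exact ⟨_, D.hN c hcz p hp, by simp only [map_mul, map_inv]⟩
  · intro c hc
    obtain ⟨c, rfl⟩ := D.hsurj c
    have hcz := D.comm_of_pi (hc _ ⟨z, D.hzP, rfl⟩)
    refine ⟨c, D.hC c hcz ?_, rfl⟩
    intro p hp
    have h1 : π (p⁻¹ * (c * p * c⁻¹)) = 1 := by
      rw [map_mul, map_mul, map_mul, map_inv, map_inv, hc _ ⟨p, hp, rfl⟩]
      group
    have h3 : c * p * c⁻¹ = p * (p⁻¹ * (c * p * c⁻¹)) := by group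
    rcases (D.hker _).1 h1 with h2 | h2
    · left
      rw [h3, h2, mul_one]
    · right
      rw [h3, h2]

theorem isExtraspecial {q x : X} (hq : q ∈ P) (hx : x ∈ P) (hqx : ⁅q, x⁆ = z) : IsExtraspecial 2 ↥(P.map π) := by
  have hf := D.facts
  refine sub_extraspecial hf le_rfl hf.hzQ ?_ ?_
  · intro y hy h
    have h1 : y ∈ P.map π ⊓ centralizer ((P.map π : Subgroup Y) : Set Y) :=
      ⟨hy, Subgroup.mem_centralizer_iff.mpr fun u hu => (h u hu).symm⟩
    rwa [hf.hcent] at h1
  · refine ⟨π q, ⟨q, hq, rfl⟩, π x, ⟨x, hx, rfl⟩, fun h => D.pi_z_ne ?_⟩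
    rw [← hqx, map_commutatorElement]
    exact commutatorElement_eq_one_iff_mul_comm.mpr h

theorem card_le_of_kernel [DecidableEq X] : Nat.card P ≤ 2 * Nat.card (P.map π) := by
  classical
  let φ : P →* Y := π.comp P.subtype
  have h1 : φ.range = P.map π := by
    rw [MonoidHom.range_comp, Subgroup.range_subtype]
  have h2 := Subgroup.card_mul_index φ.ker
  rw [Subgroup.index_ker, h1] at h2
  have h3 : Nat.card φ.ker ≤ 2 := by
    let f : φ.ker → {y // y ∈ ({1, t} : Finset X)} := fun a => ⟨a.1.1, by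
      have h4 : π a.1.1 = 1 := a.2
      rcases (D.hker _).1 h4 with h5 | h5 <;> simp [h5]⟩
    have hf : Function.Injective f := by
      intro a b hab
      have h8 : (f a).1 = (f b).1 := by rw [hab]
      have h7 : a.1.1 = b.1.1 := h8
      exact Subtype.ext (Subtype.ext h7)
    have h6 := Nat.card_le_card_of_injective f hf
    refine h6.trans ?_
    rw [Nat.card_eq_fintype_card, Fintype.card_coe]
    exact Finset.card_le_two
  rw [← h2]
  exact Nat.mul_le_mul_right _ h3

/-- The conclusion. -/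
theorem isLarge {q x f : X} (hq : q ∈ P) (hx : x ∈ P) (hqx : ⁅q, x⁆ = z) (hbig : 16 < Nat.card P)
    (hfz : f * z * f⁻¹ = x) (hxz : x ≠ z) (hxzt : x ≠ z * t) : IsLargeExtraspecial (P.map π) := by
  classical
  have L := D.largeHyp
  have hf := D.facts
  have hE := D.isExtraspecial hq hx hqx
  have hcard : 8 < Nat.card (P.map π) := by
    have := D.card_le_of_kernel
    omega
  have hxQ : π f * π z * (π f)⁻¹ ∈ P.map π := by
    refine ⟨x, hx, ?_⟩
    rw [← hfz]
    simp only [map_mul, map_inv]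
  have hne : π f * π z * (π f)⁻¹ ≠ π z := by
    intro h
    have h1 : π (z⁻¹ * x) = 1 := by
      rw [← hfz]
      simp only [map_mul, map_inv]
      rw [h]
      group
    have h3 : x = z * (z⁻¹ * x) := by group
    rcases (D.hker _).1 h1 with h2 | h2
    · apply hxz
      rw [h3, h2, mul_one]
    · apply hxzt
      rw [h3, h2]
  exact L.isLarge hE (center_map_of_facts hf) (L.odd_of_conj hcard hxQ hne)

end QuotTwo

end Cfsg.Agent.Lib.LargeES
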