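import Mathlib
import Cfsg.Agent.Lib.LargeES.Quot
import Cfsg.Agent.Lib.Core.Basic

/-!
# Large extraspecial subgroups of a quotient by a normal subgroup of odd order
-/

set_option autoImplicit false

namespace Cfsg.Agent.Lib.LargeES

open Subgroup Cfsg Cfsg.Agent.Lib.Cl Cfsg.Agent.Lib.ThreeT
open scoped commutatorElement

/-- The data of a large extraspecial subgroup in a quotient injective on it. -/
structure QuotOdd {X Y : Type*} [Group X] [Group Y] (π : X →* Y) (R : Subgroup X) (z : X) : Prop where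
  hsurj : Function.Surjective π
  hf : ExtraFacts R z
  hinj : ∀ r ∈ R, π r = 1 → r = 1
  hlift : ∀ c, π c * π z = π z * π c → ∃ c', π c' = π c ∧ (∀ r ∈ R, c' * r * c'⁻¹ ∈ R) ∧
    ((∀ r ∈ R, c' * r = r * c') → π c' ∈ R.map π)

namespace QuotOdd

variable {X Y : Type*} [Group X] [Group Y] [Finite X] [Finite Y] {π : X →* Y} {R : Subgroup X} {z : X}
  (D : QuotOdd π R z)
include D

theorem pi_z_ne : π z ≠ 1 := fun h => D.hf.z_ne_one (D.hinj z D.hf.hzQ h)

theorem pi_inj {a b : X} (ha : a ∈ R) (hb : b ∈ R) (h : π a = π b) : a = b := by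
  have h1 : π (a⁻¹ * b) = 1 := by
    rw [map_mul, map_inv, h]
    group
  have h2 := D.hinj _ (R.mul_mem (R.inv_mem ha) hb) h1
  exact (inv_mul_eq_one.mp h2)

theorem facts : ExtraFacts (R.map π) (π z) := by
  have hf := D.hf
  have hzz : z * z = 1 := by
    have := pow_orderOf_eq_one z
    rwa [hf.hz, pow_two] at this
  have hzp : ∀ c ∈ zpowers z, π c ∈ zpowers (π z) := by
    intro c hc
    rcases hf.eq_one_or hc with rfl | rfl
    · rw [map_one]; exact one_mem _
    · exact mem_zpowers _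
  refine ⟨orderOf_eq_prime (by rw [pow_two, ← map_mul, hzz, map_one]) D.pi_z_ne, ⟨z, hf.hzQ, rfl⟩, ?_, ?_, ?_⟩
  · apply le_antisymm
    · rintro y ⟨⟨a, ha, rfl⟩, hy⟩
      apply hzp
      rw [← hf.hcent]
      refine ⟨ha, Subgroup.mem_centralizer_iff.mpr ?_⟩
      intro b hb
      have h1 : π b * π a = π a * π b := Subgroup.mem_centralizer_iff.mp hy (π b) ⟨b, hb, rfl⟩
      apply D.pi_inj (R.mul_mem hb ha) (R.mul_mem ha hb)
      rw [map_mul, map_mul, h1]
    · rw [Subgroup.zpowers_le]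
      refine ⟨⟨z, hf.hzQ, rfl⟩, Subgroup.mem_centralizer_iff.mpr ?_⟩
      rintro _ ⟨p, hp, rfl⟩
      show π p * π z = π z * π p
      rw [← map_mul, ← map_mul, (hf.central (mem_zpowers z) hp).symm]
  · rintro _ ⟨a, ha, rfl⟩ _ ⟨b, hb, rfl⟩
    show ⁅π a, π b⁆ ∈ _
    rw [← map_commutatorElement]
    exact hzp _ (hf.hcom a ha b hb)
  · rintro _ ⟨a, ha, rfl⟩
    show π a * π a ∈ _
    rw [← map_mul]
    exact hzp _ (hf.hsq a ha)

theorem largeHyp : LargeHyp (R.map π) (π z) := by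
  refine ⟨D.facts, ?_, ?_⟩
  · intro c hc q hq
    obtain ⟨c, rfl⟩ := D.hsurj c
    obtain ⟨r, hr, rfl⟩ := hq
    obtain ⟨c', hc', h1, -⟩ := D.hlift c hc
    refine ⟨_, h1 r hr, ?_⟩
    simp only [map_mul, map_inv, hc']
  · intro c hc
    obtain ⟨c, rfl⟩ := D.hsurj c
    obtain ⟨c', hc', h1, h2⟩ := D.hlift c (hc _ ⟨z, D.hf.hzQ, rfl⟩)
    rw [← hc']
    apply h2
    intro r hr
    have h3 : c' * r * c'⁻¹ = r := by
      apply D.pi_inj (h1 r hr) hr
      simp only [map_mul, map_inv, hc']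
      rw [hc _ ⟨r, hr, rfl⟩]
      group
    calc c' * r = (c' * r * c'⁻¹) * c' := by group
      _ = r * c' := by rw [h3]

theorem isExtraspecial {q x : X} (hq : q ∈ R) (hx : x ∈ R) (hqx : ⁅q, x⁆ = z) : IsExtraspecial 2 ↥(R.map π) := by
  have hf := D.facts
  refine sub_extraspecial hf le_rfl hf.hzQ ?_ ?_
  · intro y hy h
    have h1 : y ∈ R.map π ⊓ centralizer ((R.map π : Subgroup Y) : Set Y) :=
      ⟨hy, Subgroup.mem_centralizer_iff.mpr fun u hu => (h u hu).symm⟩
    rwa [hf.hcent] at h1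
  · refine ⟨π q, ⟨q, hq, rfl⟩, π x, ⟨x, hx, rfl⟩, fun h => D.pi_z_ne ?_⟩
    rw [← hqx, map_commutatorElement]
    exact commutatorElement_eq_one_iff_mul_comm.mpr h

theorem card_map : Nat.card (R.map π) = Nat.card R := by
  have hφ : Function.Injective (π.comp R.subtype) := by
    rintro ⟨a, ha⟩ ⟨b, hb⟩ h
    exact Subtype.ext (D.pi_inj ha hb h)
  have h1 : (π.comp R.subtype).range = R.map π := by
    rw [MonoidHom.range_comp, Subgroup.range_subtype]
  rw [← h1]
  exact (Nat.card_congr (MonoidHom.ofInjective hφ).toEquiv).symm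

/-- The conclusion. -/
theorem isLarge {q x f : X} (hq : q ∈ R) (hx : x ∈ R) (hqx : ⁅q, x⁆ = z) (hbig : 8 < Nat.card R)
    (hfz : f * z * f⁻¹ = x) (hxz : x ≠ z) : IsLargeExtraspecial (R.map π) := by
  have L := D.largeHyp
  have hf := D.facts
  have hE := D.isExtraspecial hq hx hqx
  have hcard : 8 < Nat.card (R.map π) := by
    rw [D.card_map]; exact hbig
  have hxQ : π f * π z * (π f)⁻¹ ∈ R.map π := by
    refine ⟨x, hx, ?_⟩
    rw [← hfz]
    simp only [map_mul, map_inv]
  have hne : π f * π z * (π f)⁻¹ ≠ π z := by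
    intro h
    apply hxz
    apply D.pi_inj hx D.hf.hzQ
    rw [← hfz, ← h]
    simp only [map_mul, map_inv]
  exact L.isLarge hE (center_map_of_facts hf) (L.odd_of_conj hcard hxQ hne)

end QuotOdd

variable {G : Type*} [Group G] [Finite G]

/-- Conjugates of the large hypotheses. -/
theorem LargeHyp.conj {Q : Subgroup G} {z : G} (L : LargeHyp Q z) (g : G) :
    LargeHyp (Q.map (MulAut.conj g).toMonoidHom) (g * z * g⁻¹) := by
  refine ⟨ExtraFacts_conj L.hQ g, ?_, ?_⟩
  · intro c hc q hq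
    rw [mem_map_conj_iff] at hq ⊢
    have h1 : (g⁻¹ * c * g) * z = z * (g⁻¹ * c * g) := by
      have h2 : c * (g * z * g⁻¹) * c⁻¹ = g * z * g⁻¹ := by rw [hc]; group
      calc (g⁻¹ * c * g) * z = g⁻¹ * (c * (g * z * g⁻¹)) * g := by group
        _ = g⁻¹ * ((g * z * g⁻¹) * c) * g := by rw [hc]
        _ = z * (g⁻¹ * c * g) := by group
    have h3 := L.hN _ h1 _ hq
    have e : g⁻¹ * (c * q * c⁻¹) * g = (g⁻¹ * c * g) * (g⁻¹ * q * g) * (g⁻¹ * c * g)⁻¹ := by group
    rwa [e]
  · intro c hc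
    rw [mem_map_conj_iff]
    apply L.hC
    intro q hq
    have h1 : g * q * g⁻¹ ∈ Q.map (MulAut.conj g).toMonoidHom := ⟨q, hq, rfl⟩
    have h2 := hc _ h1
    calc g⁻¹ * c * g * q = g⁻¹ * (c * (g * q * g⁻¹)) * g := by group
      _ = g⁻¹ * ((g * q * g⁻¹) * c) * g := by rw [h2]
      _ = q * (g⁻¹ * c * g) := by group

/-- The centralizer of an odd group of automorphisms fixing `z`. -/
theorem LargeHyp.part {Q A : Subgroup G} {z : G} (L : LargeHyp Q z) (hAz : ∀ a ∈ A, a * z = z * a)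
    (hAodd : Odd (Nat.card A)) : Q ⊓ centralizer (A : Set G) = zpowers z ∨ ExtraFacts (Q ⊓ centralizer (A : Set G)) z := by
  by_cases hA1 : A = ⊥
  · right
    subst hA1
    have : (Q ⊓ centralizer (((⊥ : Subgroup G) : Subgroup G) : Set G)) = Q := by
      rw [inf_eq_left]
      intro q _
      rw [Subgroup.mem_centralizer_iff]
      intro a ha
      have : a = 1 := ha
      rw [this]; group
    rw [this]
    exact L.hQ
  · have hA : A ≤ normalizer (Q : Set G) := by
      intro a ha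
      rw [Subgroup.mem_normalizer_iff]
      intro q
      refine ⟨fun hq => L.hN a (hAz a ha) q hq, fun hq => ?_⟩
      have h1 : a⁻¹ * z = z * a⁻¹ := hAz _ (A.inv_mem ha)
      have := L.hN a⁻¹ h1 _ hq
      have e : a⁻¹ * (a * q * a⁻¹) * a⁻¹⁻¹ = q := by group
      rwa [e] at this
    obtain ⟨-, -, -, h⟩ := coprime_decomp L hA hAodd hA1
    rcases h with h | hE
    · exact Or.inl h
    · right
      have hzR : z ∈ Q ⊓ centralizer (A : Set G) :=
        ⟨L.hQ.hzQ, Subgroup.mem_centralizer_iff.mpr fun a ha => hAz a ha⟩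
      have := extraFacts_of_map (MonoidHom.id G) Function.injective_id (Q ⊓ centralizer (A : Set G)) hE (z := z)
        L.hQ.hz ⟨z, hzR, rfl⟩ (by
          rintro _ ⟨q, hq, rfl⟩
          exact (L.hQ.central (mem_zpowers z) hq.1).symm)
      simpa using this

theorem eq_one_of_odd_of_pgroup {A P : Subgroup G} (hA : Odd (Nat.card A)) (hP : IsPGroup 2 P) {r : G}
    (hrA : r ∈ A) (hrP : r ∈ P) : r = 1 := by
  obtain ⟨k, hk⟩ := hP ⟨r, hrP⟩
  have h1 : r ^ 2 ^ k = 1 := congrArg Subtype.val hk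
  have h2 : orderOf r ∣ 2 ^ k := orderOf_dvd_of_pow_eq_one h1
  have h3 : orderOf r ∣ Nat.card A := Subgroup.orderOf_dvd_natCard A hrA
  have h4 : Nat.Coprime (2 ^ k) (Nat.card A) := Nat.Coprime.pow_left k (Nat.coprime_two_left.mpr hA)
  have h5 : orderOf r = 1 := Nat.eq_one_of_dvd_coprimes h4 h2 h3
  exact orderOf_eq_one_iff.mp h5

theorem eq_one_of_odd_of_sq {A : Subgroup G} (hA : Odd (Nat.card A)) {r : G} (hrA : r ∈ A) (h : r * r = 1) : r = 1 := by
  have h2 : orderOf r ∣ 2 := orderOf_dvd_of_pow_eq_one (by rw [pow_two, h])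
  have h3 : orderOf r ∣ Nat.card A := Subgroup.orderOf_dvd_natCard A hrA
  have h4 : Nat.Coprime 2 (Nat.card A) := Nat.coprime_two_left.mpr hA
  exact orderOf_eq_one_iff.mp (Nat.eq_one_of_dvd_coprimes h4 h2 h3)

/-- A finite group with a central involution `z` whose order is not divisible by `4`. -/
theorem exists_normal_complement {Y : Type*} [Group Y] [Finite Y] {z : Y} (hz : orderOf z = 2)
    (hzc : ∀ y, z * y = y * z) (h4 : ¬ 4 ∣ Nat.card Y) :
    ∃ H : Subgroup Y, H.Normal ∧ Odd (Nat.card H) ∧ ∀ y, y ∈ H ∨ z * y ∈ H := by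
  have hzz : z * z = 1 := by
    have := pow_orderOf_eq_one z
    rwa [hz, pow_two] at this
  have hN : (zpowers z).Normal := by
    refine ⟨fun n hn g => ?_⟩
    have h1 : g * n = n * g := by
      obtain ⟨k, rfl⟩ := hn
      exact ((Commute.zpow_left (show Commute z g from hzc g) k).eq).symm
    rw [h1]
    simpa using hn
  have hcardN : Nat.card (zpowers z) = 2 := by rw [Nat.card_zpowers, hz]
  have hci := Subgroup.card_mul_index (zpowers z)
  rw [hcardN] at hci
  have hindex : Odd (zpowers z).index := by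
    rw [← Nat.not_even_iff_odd]
    rintro ⟨m, hm⟩
    apply h4
    rw [← hci, hm]
    exact ⟨m, by ring⟩
  have hcop : Nat.Coprime (Nat.card (zpowers z)) (zpowers z).index := by
    rw [hcardN]
    exact Nat.coprime_two_left.mpr hindex
  obtain ⟨H, hH⟩ := Subgroup.exists_right_complement'_of_coprime hcop
  have hdec : ∀ y, ∃ h ∈ H, y = h ∨ y = z * h := by
    intro y
    obtain ⟨⟨n, h⟩, rfl⟩ := hH.2 y
    refine ⟨h, h.2, ?_⟩
    have hz1 : z ≠ 1 := fun h => by
      rw [h, orderOf_one] at hz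
      omega
    have hn : (n : Y) = 1 ∨ (n : Y) = z := eq_one_or_of_card_two hcardN (mem_zpowers z) hz1 n.2
    rcases hn with hn | hn
    · left
      show (n : Y) * h = h
      rw [hn, one_mul]
    · right
      show (n : Y) * h = z * h
      rw [hn]
  have hcH : Nat.card H = (zpowers z).index := by
    have h1 := hH.card_mul_card
    rw [hcardN] at h1
    omega
  refine ⟨H, ⟨?_⟩, hcH ▸ hindex, ?_⟩
  · intro n hn g
    obtain ⟨h, hh, hg | hg⟩ := hdec g
    · rw [hg]
      exact H.mul_mem (H.mul_mem hh hn) (H.inv_mem hh)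
    · rw [hg]
      have e : z * h * n * (z * h)⁻¹ = h * n * h⁻¹ := by
        have h1 : z * (h * n * h⁻¹) = (h * n * h⁻¹) * z := hzc _
        calc z * h * n * (z * h)⁻¹ = (z * (h * n * h⁻¹)) * z⁻¹ := by group
          _ = (h * n * h⁻¹) * z * z⁻¹ := by rw [h1]
          _ = h * n * h⁻¹ := by group
      rw [e]
      exact H.mul_mem (H.mul_mem hh hn) (H.inv_mem hh)
  · intro y
    obtain ⟨h, hh, hg | hg⟩ := hdec y
    · rw [hg]
      exact Or.inl hh
    · right
      rw [hg, ← mul_assoc, hzz, one_mul]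
      exact hh

end Cfsg.Agent.Lib.LargeES
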