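import Mathlib
import Cfsg.Agent.Lib.LargeES.Simple
import Cfsg.Agent.Lib.LargeES.OutOrth
import Cfsg.Agent.Lib.FStar.Layer
import Cfsg.Agent.Lib.Fusion.Group

/-!
# Large extraspecial subgroups: the normal closure of `z`

`M = ⟨z^G⟩` is the unique minimal normal subgroup of `G`.  If it is not abelian, it is the layer of `G`,
`F(G) = 1`, and `Q` acts transitively on the components.
-/

set_option autoImplicit false

namespace Cfsg.Agent.Lib.LargeES.Struct

open Subgroup Cfsg Cfsg.Agent.Lib.Cl Cfsg.Agent.Lib.LargeES Cfsg.Agent.Lib.FStar Cfsg.Agent.Lib.Core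
open Cfsg.Agent.Lib.Fusion (conjSub conj_mem_conjSub mem_conjSub)
open scoped commutatorElement

variable {G : Type*} [Group G] [Finite G] {Q : Subgroup G} {z : G}

/-- The hypotheses in elementwise form. -/
structure Ctx (Q : Subgroup G) (z : G) : Prop where
  L : LargeHyp Q z
  hodd : ∀ K : Subgroup G, Odd (Nat.card K) → (∀ u ∈ Q, ∀ k ∈ K, u * k * u⁻¹ ∈ K) → K = ⊥

namespace Ctx

variable (c : Ctx Q z)
include c

theorem mem_normal (N : Subgroup G) [hN : N.Normal] (h : N ≠ ⊥) : z ∈ N := by
  rcases c.L.mem_or_odd N with h1 | h1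
  · exact h1
  · exact absurd (c.hodd N h1 fun u _ k hk => hN.conj_mem k hk u) h

theorem closure_le (N : Subgroup G) [N.Normal] (h : N ≠ ⊥) : normalClosure ({z} : Set G) ≤ N := by
  apply Subgroup.normalClosure_le_normal
  simpa using c.mem_normal N h

theorem z_ne_one : z ≠ 1 := c.L.hQ.z_ne_one

theorem mem_closure : z ∈ normalClosure ({z} : Set G) :=
  Subgroup.subset_normalClosure (Set.mem_singleton z)

/-- A component does not centralize `z`. -/
theorem not_commute {K : Subgroup G} (hK : IsComponent K) : ¬ ∀ k ∈ K, k * z = z * k := by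
  intro h
  have hnorm : K ≤ normalizer (Q : Set G) := by
    intro k hk
    rw [Subgroup.mem_normalizer_iff]
    intro q
    refine ⟨fun hq => c.L.hN k (h k hk) q hq, fun hq => ?_⟩
    have := c.L.hN k⁻¹ (h _ (K.inv_mem hk)) _ hq
    have e : k⁻¹ * (k * q * k⁻¹) * k⁻¹⁻¹ = q := by group
    rwa [e] at this
  have hp : IsPGroup 2 Q := isPGroup_of_facts c.L.hQ
  have : Fact (Nat.Prime 2) := ⟨Nat.prime_two⟩
  have hsolv : Group.IsSolvable Q := by
    have := hp.isNilpotent
    infer_instance
  have hcomm := component_commute_of_normalizes hK hsolv hnorm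
  have hle : K ≤ zpowers z := by
    intro k hk
    have h1 : ∀ q ∈ Q, k * q = q * k := fun q hq => mul_comm_of_commutator_eq_bot hcomm hk hq
    have h2 : k ∈ Q := c.L.hC k h1
    have h3 : k ∈ Q ⊓ centralizer (Q : Set G) :=
      ⟨h2, Subgroup.mem_centralizer_iff.mpr fun q hq => (h1 q hq).symm⟩
    rwa [c.L.hQ.hcent] at h3
  exact component_not_le_of_solvable hK (by infer_instance) hle

/-- Odd cores vanish. -/
theorem pCore_odd (p : ℕ) [hp : Fact p.Prime] (h2 : p ≠ 2) : pCore p G = ⊥ := by
  have hP : IsPGroup p (pCore p G) := pCore_isPGroup p G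
  apply c.hodd
  · obtain ⟨n, hn⟩ := IsPGroup.iff_card.mp hP
    rw [hn]
    exact (hp.out.odd_of_ne_two h2).pow
  · intro u _ k hk
    exact (pCore_normal p G).conj_mem k hk u

theorem fitting_le : fittingSubgroup G ≤ pCore 2 G := by
  have : Fact (Nat.Prime 2) := ⟨Nat.prime_two⟩
  rw [fittingSubgroup_eq_iSup_pCore]
  apply iSup_le
  intro p
  by_cases h : (p : ℕ) = 2
  · rw [h]
  · have : Fact (p : ℕ).Prime := ⟨p.2⟩
    rw [c.pCore_odd p h]
    exact bot_le

theorem fitting_eq : fittingSubgroup G = pCore 2 G := by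
  have : Fact (Nat.Prime 2) := ⟨Nat.prime_two⟩
  exact le_antisymm c.fitting_le (pCore_le_fittingSubgroup 2)

/-- The abelian case. -/
theorem gen_of_comm (hM : IsMulCommutative ↥(normalClosure ({z} : Set G))) :
    generalizedFittingSubgroup G = pCore 2 G := by
  have hl : layer G = ⊥ := by
    rw [eq_bot_iff]
    refine sSup_le fun K hK => ?_
    exfalso
    have hs : Group.IsSolvable ↥(normalClosure ({z} : Set G)) := by
      exact isSolvable_of_comm hM.is_comm.comm
    have h1 := component_commute_of_solvable hK (normalClosure_normal (s := ({z} : Set G))).isSubnormal hs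
    exact c.not_commute hK fun k hk => mul_comm_of_commutator_eq_bot h1 hk c.mem_closure
  rw [generalizedFittingSubgroup, hl, bot_sup_eq, c.fitting_eq]

variable (hnc : ¬ IsMulCommutative ↥(normalClosure ({z} : Set G)))
include hnc

theorem comm_of_le {A : Subgroup G} (hA : ∀ a ∈ A, ∀ b ∈ A, a * b = b * a)
    (hle : normalClosure ({z} : Set G) ≤ A) : False := by
  apply hnc
  refine ⟨⟨fun a b => Subtype.ext (hA _ (hle a.2) _ (hle b.2))⟩⟩

theorem pCore_eq_bot : pCore 2 G = ⊥ := by
  have : Fact (Nat.Prime 2) := ⟨Nat.prime_two⟩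
  by_contra hne
  have hP : IsPGroup 2 (pCore 2 G) := pCore_isPGroup 2 G
  haveI : Nontrivial (pCore 2 G) := (Subgroup.nontrivial_iff_ne_bot _).mpr hne
  have hnt := hP.center_nontrivial
  have hn : ((center (pCore 2 G)).map (pCore 2 G).subtype).Normal :=
    ConjAct.normal_of_characteristic_of_normal
  have hne2 : (center (pCore 2 G)).map (pCore 2 G).subtype ≠ ⊥ := by
    intro h
    rw [Subgroup.map_eq_bot_iff_of_injective _ (pCore 2 G).subtype_injective] at h
    have : Nontrivial (⊥ : Subgroup (pCore 2 G)) := h ▸ hnt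
    exact not_nontrivial _ this
  refine c.comm_of_le hnc ?_ (c.closure_le _ hne2)
  intro a ha b hb
  exact ((mem_center_map_iff.mp hb).2 a (mem_center_map_iff.mp ha).1)

theorem fitting_eq_bot : fittingSubgroup G = ⊥ := by
  rw [c.fitting_eq, c.pCore_eq_bot hnc]

theorem layer_ne_bot : layer G ≠ ⊥ := by
  intro h
  have h1 : centralizer (generalizedFittingSubgroup G : Set G) ≤ generalizedFittingSubgroup G :=
    centralizer_gen_le
  have h2 : generalizedFittingSubgroup G = ⊥ := by
    rw [generalizedFittingSubgroup, h, c.fitting_eq_bot hnc, bot_sup_eq]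
  rw [h2] at h1
  have h3 : z ∈ (⊥ : Subgroup G) := h1 (by simp [Subgroup.mem_centralizer_iff])
  exact c.z_ne_one (Subgroup.mem_bot.mp h3)

theorem layer_eq : layer G = normalClosure ({z} : Set G) := by
  apply le_antisymm
  · refine sSup_le fun K hK => ?_
    rcases component_le_or_commute_of_normal hK (normalClosure ({z} : Set G)) with h | h
    · exact h
    · exact absurd (fun k hk => mul_comm_of_commutator_eq_bot h hk c.mem_closure) (c.not_commute hK)
  · exact c.closure_le _ (c.layer_ne_bot hnc)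

theorem gen_eq : normalClosure ({z} : Set G) = generalizedFittingSubgroup G := by
  rw [generalizedFittingSubgroup, c.fitting_eq_bot hnc, sup_bot_eq, c.layer_eq hnc]

/-- The centre of `M` is trivial. -/
theorem center_triv {x : G} (hx : x ∈ normalClosure ({z} : Set G))
    (h : ∀ y ∈ normalClosure ({z} : Set G), x * y = y * x) : x = 1 := by
  by_contra hx1
  have hn : ((center (normalClosure ({z} : Set G))).map (normalClosure ({z} : Set G)).subtype).Normal :=
    ConjAct.normal_of_characteristic_of_normal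
  have hne2 : (center (normalClosure ({z} : Set G))).map (normalClosure ({z} : Set G)).subtype ≠ ⊥ := by
    intro h2
    have h3 : x ∈ (center (normalClosure ({z} : Set G))).map (normalClosure ({z} : Set G)).subtype :=
      mem_center_map_iff.mpr ⟨hx, fun a ha => (h a ha).symm⟩
    rw [h2] at h3
    exact hx1 (Subgroup.mem_bot.mp h3)
  refine c.comm_of_le hnc ?_ (c.closure_le _ hne2)
  intro a ha b hb
  exact ((mem_center_map_iff.mp hb).2 a (mem_center_map_iff.mp ha).1)

end Ctx

/-- The components. -/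
abbrev Cp (G : Type*) [Group G] : Set (Subgroup G) := {K : Subgroup G | IsComponent K}

omit [Finite G] in
theorem sSup_commute {A B : Set (Subgroup G)} (hA : A ⊆ Cp G) (hB : B ⊆ Cp G) (hd : ∀ K ∈ A, K ∉ B) :
    ∀ a ∈ sSup A, ∀ b ∈ sSup B, a * b = b * a := by
  have h1 : sSup A ≤ centralizer ((sSup B : Subgroup G) : Set G) := by
    refine sSup_le fun K hK => ?_
    have h2 : sSup B ≤ centralizer (K : Set G) := by
      refine sSup_le fun K' hK' => ?_
      have hne : K ≠ K' := fun h => hd K hK (h ▸ hK')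
      intro y hy
      rw [Subgroup.mem_centralizer_iff]
      intro x hx
      exact mul_comm_of_commutator_eq_bot (component_commute (hA hK) (hB hK') hne) hx hy
    intro x hx
    rw [Subgroup.mem_centralizer_iff]
    intro y hy
    exact (Subgroup.mem_centralizer_iff.mp (h2 hy) x hx).symm
  intro a ha b hb
  exact (Subgroup.mem_centralizer_iff.mp (h1 ha) b hb).symm

/-- A pair of commuting subgroups meeting trivially. -/
structure Dec (A B : Subgroup G) : Prop where
  comm : ∀ a ∈ A, ∀ b ∈ B, a * b = b * a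
  inf : ∀ a ∈ A, a ∈ B → a = 1

omit [Finite G] in
theorem Dec.uniq {A B : Subgroup G} (h : Dec A B) {a a' b b' : G} (ha : a ∈ A) (ha' : a' ∈ A) (hb : b ∈ B)
    (hb' : b' ∈ B) (e : a * b = a' * b') : a = a' ∧ b = b' := by
  have h1 : a'⁻¹ * a ∈ A := A.mul_mem (A.inv_mem ha') ha
  have h2 : a'⁻¹ * a = b' * b⁻¹ := by
    calc a'⁻¹ * a = a'⁻¹ * (a * b) * b⁻¹ := by group
      _ = a'⁻¹ * (a' * b') * b⁻¹ := by rw [e]
      _ = b' * b⁻¹ := by group
  have h3 : a'⁻¹ * a = 1 := h.inf _ h1 (by rw [h2]; exact B.mul_mem hb' (B.inv_mem hb))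
  have h4 : a = a' := by
    calc a = a' * (a'⁻¹ * a) := by group
      _ = a' := by rw [h3]; group
  refine ⟨h4, ?_⟩
  rw [h4] at e
  exact mul_left_cancel e

namespace Ctx

variable (c : Ctx Q z) (hnc : ¬ IsMulCommutative ↥(normalClosure ({z} : Set G)))
include c hnc

theorem sup_compl {A : Set (Subgroup G)} (hA : A ⊆ Cp G) :
    sSup A ⊔ sSup (Cp G \ A) = normalClosure ({z} : Set G) := by
  rw [← c.layer_eq hnc, layer, ← sSup_union, Set.union_sdiff_cancel hA]

theorem dec_compl {A : Set (Subgroup G)} (hA : A ⊆ Cp G) : Dec (sSup A) (sSup (Cp G \ A)) := by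
  have hcomm := sSup_commute hA Set.sdiff_subset (A := A) (B := Cp G \ A) (fun K hK h => h.2 hK)
  refine ⟨hcomm, ?_⟩
  intro a ha hb
  refine c.center_triv hnc ?_ ?_
  · rw [← c.sup_compl hnc hA]
    exact Subgroup.mem_sup_left ha
  · intro y hy
    rw [← c.sup_compl hnc hA] at hy
    obtain ⟨x₁, hx₁, x₂, hx₂, rfl⟩ := mem_sup_of_commuting hcomm hy
    calc a * (x₁ * x₂) = (a * x₁) * x₂ := by group
      _ = (x₁ * a) * x₂ := by rw [(hcomm x₁ hx₁ a hb)]
      _ = x₁ * (a * x₂) := by group
      _ = x₁ * (x₂ * a) := by rw [hcomm a ha x₂ hx₂]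
      _ = x₁ * x₂ * a := by group

theorem exists_dec {A : Set (Subgroup G)} (hA : A ⊆ Cp G) {m : G} (hm : m ∈ normalClosure ({z} : Set G)) :
    ∃ a ∈ sSup A, ∃ b ∈ sSup (Cp G \ A), a * b = m := by
  rw [← c.sup_compl hnc hA] at hm
  exact mem_sup_of_commuting (c.dec_compl hnc hA).comm hm

/-- The complement of a single component. -/
theorem dec_single {T : Subgroup G} (hT : IsComponent T) : Dec T (sSup (Cp G \ {T})) := by
  have := c.dec_compl hnc (A := {T}) (by simpa using hT)
  rwa [sSup_singleton] at this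

theorem exists_dec_single {T : Subgroup G} (hT : IsComponent T) {m : G} (hm : m ∈ normalClosure ({z} : Set G)) :
    ∃ a ∈ T, ∃ b ∈ sSup (Cp G \ {T}), a * b = m := by
  have := c.exists_dec hnc (A := {T}) (by simpa using hT) hm
  rwa [sSup_singleton] at this

theorem le_compl {T K : Subgroup G} (hK : IsComponent K) (h : K ≠ T) : K ≤ sSup (Cp G \ {T}) :=
  le_sSup ⟨hK, h⟩

theorem comp_le {T : Subgroup G} (hT : IsComponent T) : T ≤ normalClosure ({z} : Set G) := by
  rw [← c.layer_eq hnc]
  exact component_le_layer hT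

/-- Components have trivial centre. -/
theorem center_comp {T : Subgroup G} (hT : IsComponent T) {x : G} (hx : x ∈ T)
    (h : ∀ y ∈ T, x * y = y * x) : x = 1 := by
  have hd := c.dec_single hnc hT
  refine c.center_triv hnc (c.comp_le hnc hT hx) ?_
  intro y hy
  obtain ⟨a, ha, b, hb, rfl⟩ := c.exists_dec_single hnc hT hy
  calc x * (a * b) = (x * a) * b := by group
    _ = (a * x) * b := by rw [h a ha]
    _ = a * (x * b) := by group
    _ = a * (b * x) := by rw [hd.comm x hx b hb]
    _ = a * b * x := by group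

theorem comp_simple {T : Subgroup G} (hT : IsComponent T) : IsSimpleGroup T := by
  have h1 : center T = ⊥ := by
    rw [eq_bot_iff]
    intro x hx
    have := c.center_comp hnc hT x.2 fun y hy =>
      congrArg Subtype.val ((Subgroup.mem_center_iff.mp hx ⟨y, hy⟩).symm)
    exact Subgroup.mem_bot.mpr (Subtype.ext this)
  have e : (T ⧸ center T) ≃* T :=
    (QuotientGroup.quotientMulEquivOfEq h1).trans QuotientGroup.quotientBot
  haveI := hT.2.2
  haveI := qs_nontrivial hT.2
  exact IsSimpleGroup.isSimpleGroup_of_surjective e.toMonoidHom e.surjective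

end Ctx

omit [Finite G] in
theorem comp_not_comm {T : Subgroup G} (hT : IsComponent T) : ¬ IsMulCommutative T := by
  intro h
  apply component_not_solvable hT
  exact isSolvable_of_comm h.is_comm.comm

end Cfsg.Agent.Lib.LargeES.Struct
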