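import Mathlib
import Cfsg.Agent.Lib.LargeES.Struct

/-!
# Large extraspecial subgroups: `Q` is transitive on the components, and at most two of them
-/

set_option autoImplicit false

namespace Cfsg.Agent.Lib.LargeES.Struct

open Subgroup Cfsg Cfsg.Agent.Lib.Cl Cfsg.Agent.Lib.LargeES Cfsg.Agent.Lib.FStar Cfsg.Agent.Lib.Core
open Cfsg.Agent.Lib.Fusion (conjSub conj_mem_conjSub mem_conjSub card_conjSub isSylowIn_of_sylow IsSylowIn)
open scoped commutatorElement

variable {G : Type*} [Group G] [Finite G] {Q : Subgroup G} {z : G}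

omit [Finite G] in
theorem sSup_conj_inv {A : Set (Subgroup G)} {g : G} (h : ∀ K ∈ A, conjSub g K ∈ A) :
    ∀ a ∈ sSup A, g * a * g⁻¹ ∈ sSup A := by
  have h1 : sSup A ≤ (sSup A).comap (MulAut.conj g).toMonoidHom := by
    refine sSup_le fun K hK k hk => ?_
    exact le_sSup (h K hK) (conj_mem_conjSub hk)
  intro a ha
  exact h1 ha

omit [Finite G] in
theorem conjSub_mul (a b : G) (T : Subgroup G) : conjSub (a * b) T = conjSub a (conjSub b T) := by
  ext x
  rw [mem_conjSub, mem_conjSub, mem_conjSub]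
  have : (a * b)⁻¹ * x * (a * b) = b⁻¹ * (a⁻¹ * x * a) * b := by group
  rw [this]

omit [Finite G] in
theorem conjSub_one (T : Subgroup G) : conjSub 1 T = T := by
  ext x
  rw [mem_conjSub]
  simp

theorem conjSub_eq_of_mem {T : Subgroup G} {g : G} (h : ∀ k ∈ T, g * k * g⁻¹ ∈ T) : conjSub g T = T := by
  have hle : conjSub g T ≤ T := by
    rintro _ ⟨k, hk, rfl⟩
    exact h k hk
  exact Subgroup.eq_of_le_of_card_ge hle (by rw [card_conjSub])

namespace Ctx

variable (c : Ctx Q z) (hnc : ¬ IsMulCommutative ↥(normalClosure ({z} : Set G)))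
include c

theorem central_z {q : G} (hq : q ∈ Q) : q * z * q⁻¹ = z := by
  have h1 := c.L.hQ.hcent.ge (mem_zpowers z)
  have h2 := Subgroup.mem_centralizer_iff.mp h1.2 q hq
  rw [h2]; group

theorem comm_mem {d u : G} (hdz : d * z = z * d) (hu : u ∈ Q) : d * (u * d⁻¹ * u⁻¹) ∈ Q := by
  have h1 := c.L.hN d hdz u hu
  have h2 := Q.mul_mem h1 (Q.inv_mem hu)
  have e : d * u * d⁻¹ * u⁻¹ = d * (u * d⁻¹ * u⁻¹) := by group
  rwa [e] at h2

include hnc

/-- `Q` is transitive on the components. -/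
theorem transitive {T K : Subgroup G} (hT : IsComponent T) (hK : IsComponent K) : ∃ q ∈ Q, K = conjSub q T := by
  by_contra hne
  let O : Set (Subgroup G) := {X | ∃ q ∈ Q, X = conjSub q T}
  have hO : O ⊆ Cp G := by
    rintro _ ⟨q, -, rfl⟩
    exact component_map_conj q hT
  have hd := c.dec_compl hnc hO
  obtain ⟨x, hx, y, hy, hxy⟩ := c.exists_dec hnc hO c.mem_closure
  have hinvX : ∀ q ∈ Q, ∀ a ∈ sSup O, q * a * q⁻¹ ∈ sSup O := by
    intro q hq
    apply sSup_conj_inv
    rintro _ ⟨q₁, hq₁, rfl⟩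
    exact ⟨q * q₁, Q.mul_mem hq hq₁, (conjSub_mul q q₁ T).symm⟩
  have hinvY : ∀ q ∈ Q, ∀ a ∈ sSup (Cp G \ O), q * a * q⁻¹ ∈ sSup (Cp G \ O) := by
    intro q hq
    apply sSup_conj_inv
    rintro K₁ ⟨hK₁, hK₂⟩
    refine ⟨component_map_conj q hK₁, ?_⟩
    rintro ⟨q₁, hq₁, hq₂⟩
    apply hK₂
    refine ⟨q⁻¹ * q₁, Q.mul_mem (Q.inv_mem hq) hq₁, ?_⟩
    rw [conjSub_mul, ← hq₂, ← conjSub_mul]
    simp [conjSub_one]
  have hfix : ∀ q ∈ Q, q * x * q⁻¹ = x := by
    intro q hq
    have h1 : (q * x * q⁻¹) * (q * y * q⁻¹) = x * y := by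
      rw [hxy]
      calc (q * x * q⁻¹) * (q * y * q⁻¹) = q * (x * y) * q⁻¹ := by group
        _ = q * z * q⁻¹ := by rw [hxy]
        _ = z := c.central_z hq
    exact (hd.uniq (hinvX q hq x hx) hx (hinvY q hq y hy) hy h1).1
  have hxc : ∀ q ∈ Q, x * q = q * x := by
    intro q hq
    calc x * q = (q * x * q⁻¹) * q := by rw [hfix q hq]
      _ = q * x := by group
  have hxQ : x ∈ Q := c.L.hC x hxc
  have hxz : x ∈ zpowers z := by
    rw [← c.L.hQ.hcent]
    exact ⟨hxQ, Subgroup.mem_centralizer_iff.mpr fun q hq => (hxc q hq).symm⟩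
  rcases c.L.hQ.eq_one_or hxz with h1 | h1
  · -- `z` lies in the complement; `T` commutes with it
    rw [h1, one_mul] at hxy
    rw [hxy] at hy
    refine c.not_commute hT fun k hk => hd.comm k ?_ z hy
    have : T ∈ O := ⟨1, Q.one_mem, (conjSub_one T).symm⟩
    exact le_sSup this hk
  · -- `z` lies in the span of the orbit; `K` commutes with it
    rw [h1] at hx
    refine c.not_commute hK fun k hk => (hd.comm z hx k ?_).symm
    have : K ∈ Cp G \ O := ⟨hK, fun ⟨q, hq, h⟩ => hne ⟨q, hq, h⟩⟩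
    exact le_sSup this hk

/-- Elements of `M` normalize each component. -/
theorem conj_M {T : Subgroup G} (hT : IsComponent T) {m : G} (hm : m ∈ normalClosure ({z} : Set G)) :
    conjSub m T = T := by
  obtain ⟨a, ha, b, hb, rfl⟩ := c.exists_dec_single hnc hT hm
  have hd := c.dec_single hnc hT
  apply conjSub_eq_of_mem
  intro k hk
  have h1 : b * k = k * b := (hd.comm k hk b hb).symm
  have e : a * b * k * (a * b)⁻¹ = a * k * a⁻¹ := by
    calc a * b * k * (a * b)⁻¹ = a * (b * k) * (a * b)⁻¹ := by group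
      _ = a * (k * b) * (a * b)⁻¹ := by rw [h1]
      _ = a * k * a⁻¹ := by group
  rw [e]
  exact T.mul_mem (T.mul_mem ha hk) (T.inv_mem ha)

theorem conj_sq {T : Subgroup G} (hT : IsComponent T) {x : G} (hx : x ∈ Q) : conjSub (x * x) T = T := by
  apply c.conj_M hnc hT
  have h := c.L.hQ.hsq x hx
  have h2 : zpowers z ≤ normalClosure ({z} : Set G) := by
    rw [Subgroup.zpowers_le]
    exact c.mem_closure
  exact h2 h

theorem conj_inv {T : Subgroup G} (hT : IsComponent T) {x : G} (hx : x ∈ Q) :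
    conjSub x⁻¹ T = conjSub x T := by
  have h := c.conj_sq hnc hT hx
  calc conjSub x⁻¹ T = conjSub x⁻¹ (conjSub (x * x) T) := by rw [h]
    _ = conjSub (x⁻¹ * (x * x)) T := (conjSub_mul _ _ _).symm
    _ = conjSub x T := by simp

/-- The two factors of `z`. -/
theorem factor_sq {T : Subgroup G} (hT : IsComponent T) {t w : G} (ht : t ∈ T)
    (hw : w ∈ sSup (Cp G \ {T})) (htw : t * w = z) : t * t = 1 := by
  have hd := c.dec_single hnc hT
  have hz := c.L.sq_z
  have h1 : (t * t) * (w * w) = 1 * 1 := by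
    rw [one_mul, ← hz, ← htw]
    have := hd.comm t ht w hw
    calc t * t * (w * w) = t * (t * w) * w := by group
      _ = t * (w * t) * w := by rw [this]
      _ = t * w * (t * w) := by group
  exact (hd.uniq (T.mul_mem ht ht) T.one_mem (Subgroup.mul_mem _ hw hw) (Subgroup.one_mem _) h1).1

theorem factor_ne_one {T : Subgroup G} (hT : IsComponent T) {t w : G} (hw : w ∈ sSup (Cp G \ {T}))
    (htw : t * w = z) (ht1 : t = 1) : False := by
  have hd := c.dec_single hnc hT
  rw [ht1, one_mul] at htw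
  subst htw
  exact c.not_commute hT fun k hk => hd.comm k hk w hw

theorem sylow_of_comp {T : Subgroup G} (hT : IsComponent T) (S : Sylow 2 G) [Fact (Nat.Prime 2)] :
    IsSylowIn 2 (((S : Subgroup G) ⊓ normalClosure ({z} : Set G)) ⊓ T) T := by
  have h0 := isSylowIn_of_sylow S
  have h1 := h0.inf_normal le_top (le_top (a := normalClosure ({z} : Set G))) inferInstance
  refine h1.inf_normal inf_le_right (c.comp_le hnc hT) ⟨fun k hk m => ?_⟩
  rw [Subgroup.mem_subgroupOf] at hk ⊢
  have h2 := c.conj_M hnc hT m.2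
  rw [← h2]
  exact ⟨k, hk, by simp [MulAut.conj_apply]⟩

/-- A `2`-subgroup argument: centralizers of `z` in `T` cannot be as small as `⟨t⟩`. -/
theorem small {T : Subgroup G} (hT : IsComponent T) {t : G} (ht : t ∈ T) (ht1 : t ≠ 1) (ht2 : t * t = 1)
    (h : ∀ d ∈ T, d * z = z * d → d = 1 ∨ d = t) : False := by
  have : Fact (Nat.Prime 2) := ⟨Nat.prime_two⟩
  obtain ⟨S, -, -, hSz, -⟩ := c.L.exists_sylow
  obtain ⟨R, hR⟩ := c.sylow_of_comp hnc hT S
  have hRt : ∀ r : T, r ∈ (R : Subgroup T) → (r : G) = 1 ∨ (r : G) = t := by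
    intro r hr
    rw [hR, Subgroup.mem_subgroupOf] at hr
    exact h r r.2 (hSz _ hr.1.1)
  have hne : ∀ r : T, r ∈ (R : Subgroup T) → r = 1 ∨ r = ⟨t, ht⟩ := by
    intro r hr
    rcases hRt r hr with h1 | h1
    · left; exact Subtype.ext h1
    · right; exact Subtype.ext h1
  have hP : normalizer ((R : Subgroup T) : Set T) ≤ centralizer ((R : Subgroup T) : Set T) := by
    intro n hn
    rw [Subgroup.mem_centralizer_iff]
    intro r hr
    have h1 : n * r * n⁻¹ ∈ (R : Subgroup T) := (Subgroup.mem_normalizer_iff.mp hn r).mp hr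
    have ht' : (⟨t, ht⟩ : T) ≠ 1 := fun h2 => ht1 (congrArg Subtype.val h2)
    rcases hne r hr with rfl | rfl
    · simp
    rcases hne _ h1 with h2 | h2
    · exfalso
      apply ht'
      have : (⟨t, ht⟩ : T) = n⁻¹ * (n * ⟨t, ht⟩ * n⁻¹) * n := by group
      rw [this, h2]; group
    · calc (⟨t, ht⟩ : T) * n = (n * ⟨t, ht⟩ * n⁻¹) * n := by rw [h2]
        _ = n * ⟨t, ht⟩ := by group
  have hcompl := MonoidHom.ker_transferSylow_isComplement' R hP
  have hsim := c.comp_simple hnc hT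
  have h2dvd : 2 ∣ Nat.card T := by
    have h3 : orderOf (⟨t, ht⟩ : T) = 2 := by
      apply orderOf_eq_prime
      · apply Subtype.ext
        simpa [pow_two] using ht2
      · exact fun h2 => ht1 (congrArg Subtype.val h2)
    rw [← h3]
    exact orderOf_dvd_natCard _
  rcases hsim.eq_bot_or_eq_top_of_normal (MonoidHom.transferSylow R hP).ker (MonoidHom.normal_ker _) with h4 | h4
  · rw [h4, Subgroup.isComplement'_bot_left] at hcompl
    apply comp_not_comm hT
    refine ⟨⟨fun a b => ?_⟩⟩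
    have ha := hne a (by rw [hcompl]; trivial)
    have hb := hne b (by rw [hcompl]; trivial)
    rcases ha with rfl | rfl
    · simp
    rcases hb with rfl | rfl
    · simp
    rfl
  · rw [h4, Subgroup.isComplement'_top_left] at hcompl
    exact Sylow.ne_bot_of_dvd_card R h2dvd hcompl

end Ctx

end Cfsg.Agent.Lib.LargeES.Struct
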