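import Mathlib
import Cfsg.Agent.Lib.LargeES.Struct2

/-!
# Large extraspecial subgroups: at most two components
-/

set_option autoImplicit false

namespace Cfsg.Agent.Lib.LargeES.Struct

open Subgroup Cfsg Cfsg.Agent.Lib.Cl Cfsg.Agent.Lib.LargeES Cfsg.Agent.Lib.FStar Cfsg.Agent.Lib.Core
open Cfsg.Agent.Lib.Fusion (conjSub conj_mem_conjSub mem_conjSub card_conjSub isSylowIn_of_sylow IsSylowIn)
open scoped commutatorElement

variable {G : Type*} [Group G] [Finite G] {Q : Subgroup G} {z : G}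

/-- A group whose squares all lie in `M₀` has Frattini subgroup in `M₀`. -/
theorem frattini_le_of_sq {R : Type*} [Group R] [Finite R] (M₀ : Subgroup R) (h : ∀ s : R, s * s ∈ M₀) :
    frattini R ≤ M₀ := by
  intro y hy
  by_contra hyM
  obtain ⟨H, hH, hyH, hall⟩ := OutOrth.exists_hyperplane M₀ y hyM h
  have hcoatom : IsCoatom H := by
    refine ⟨fun h1 => hyH (h1 ▸ mem_top y), ?_⟩
    intro K hHK
    obtain ⟨s, hsK, hsH⟩ := SetLike.exists_of_lt hHK
    have hyK : y ∈ K := by
      rcases hall s with h1 | h1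
      · exact absurd h1 hsH
      · have := K.mul_mem (K.inv_mem hsK) (hHK.le h1)
        simpa using this
    rw [eq_top_iff]
    intro a _
    rcases hall a with h1 | h1
    · exact hHK.le h1
    · have := K.mul_mem (hHK.le h1) (K.inv_mem hyK)
      simpa using this
  exact hyH (mem_frattini_iff.mp hy H hcoatom)

namespace Ctx

variable (c : Ctx Q z) (hnc : ¬ IsMulCommutative ↥(normalClosure ({z} : Set G)))
include c hnc

/-- Three conjugates under `Q` force a small centralizer. -/
theorem not_three {T : Subgroup G} (hT : IsComponent T) {u x : G} (hu : u ∈ Q) (hx : x ∈ Q)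
    (h1 : conjSub u T ≠ T) (h2 : conjSub x T ≠ T) (h3 : conjSub x T ≠ conjSub u T) : False := by
  have hd := c.dec_single hnc hT
  obtain ⟨t, ht, w, hw, htw⟩ := c.exists_dec_single hnc hT c.mem_closure
  have htt := c.factor_sq hnc hT ht hw htw
  have ht1 : t ≠ 1 := fun h => c.factor_ne_one hnc hT hw htw h
  refine c.small hnc hT ht ht1 htt fun d hdT hdz => ?_
  have hY : ∀ g : G, conjSub g T ≠ T → conjSub g T ≤ sSup (Cp G \ {T}) := fun g hg =>
    c.le_compl hnc (component_map_conj g hT) hg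
  have h4 : conjSub (x * u) T ≠ T := by
    intro h5
    rw [conjSub_mul] at h5
    apply h3
    have h6 : conjSub x⁻¹ (conjSub x (conjSub u T)) = conjSub x⁻¹ T := by rw [h5]
    rw [← conjSub_mul, inv_mul_cancel, conjSub_one, c.conj_inv hnc hT hx] at h6
    exact h6.symm
  set a := d * (u * d⁻¹ * u⁻¹) with ha
  have haQ : a ∈ Q := c.comm_mem hdz hu
  set b := u * d⁻¹ * u⁻¹ with hb
  have hbY : b ∈ sSup (Cp G \ {T}) := hY u h1 (conj_mem_conjSub (T.inv_mem hdT))
  have hxaY : x * a * x⁻¹ ∈ sSup (Cp G \ {T}) := by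
    have e : x * a * x⁻¹ = (x * d * x⁻¹) * ((x * u) * d⁻¹ * (x * u)⁻¹) := by
      rw [ha, hb]; group
    rw [e]
    exact Subgroup.mul_mem _ (hY x h2 (conj_mem_conjSub hdT)) (hY _ h4 (conj_mem_conjSub (T.inv_mem hdT)))
  have hcomm := c.L.hQ.hcom x hx a haQ
  rw [commutatorElement_def] at hcomm
  rcases c.L.hQ.eq_one_or hcomm with h5 | h5
  · -- `x a x⁻¹ = a`
    left
    have e : x * a * x⁻¹ = a := by
      calc x * a * x⁻¹ = (x * a * x⁻¹ * a⁻¹) * a := by group
        _ = a := by rw [h5, one_mul]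
    rw [e] at hxaY
    have h6 : d * b * b⁻¹ ∈ sSup (Cp G \ {T}) := Subgroup.mul_mem _ hxaY (Subgroup.inv_mem _ hbY)
    rw [mul_inv_cancel_right] at h6
    exact hd.inf d hdT h6
  · -- `x a x⁻¹ = z a`
    right
    have e : x * a * x⁻¹ = z * a := by
      calc x * a * x⁻¹ = (x * a * x⁻¹ * a⁻¹) * a := by group
        _ = z * a := by rw [h5]
    rw [e, ← htw] at hxaY
    have hwd : w * d = d * w := (hd.comm d hdT w hw).symm
    have e2 : t * w * a = (t * d) * (w * b) := by
      rw [ha]
      calc t * w * (d * b) = t * (w * d) * b := by group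
        _ = t * (d * w) * b := by rw [hwd]
        _ = (t * d) * (w * b) := by group
    rw [e2] at hxaY
    have h6 : (t * d) * (w * b) * (w * b)⁻¹ ∈ sSup (Cp G \ {T}) :=
      Subgroup.mul_mem _ hxaY (Subgroup.inv_mem _ (Subgroup.mul_mem _ hw hbY))
    rw [mul_inv_cancel_right] at h6
    have h7 := hd.inf _ (T.mul_mem ht hdT) h6
    calc d = t⁻¹ * (t * d) := by group
      _ = t⁻¹ := by rw [h7, mul_one]
      _ = t := by
        calc t⁻¹ = t⁻¹ * (t * t) := by rw [htt, mul_one]
          _ = t := by group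

end Ctx

end Cfsg.Agent.Lib.LargeES.Struct
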