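import Mathlib
import Cfsg.Agent.Lib.LargeES.Struct3

/-!
# Large extraspecial subgroups: the case of two components
-/

set_option autoImplicit false

namespace Cfsg.Agent.Lib.LargeES.Struct

open Subgroup Cfsg Cfsg.Agent.Lib.Cl Cfsg.Agent.Lib.LargeES Cfsg.Agent.Lib.FStar Cfsg.Agent.Lib.Core
open Cfsg.Agent.Lib.Fusion (conjSub conj_mem_conjSub mem_conjSub card_conjSub isSylowIn_of_sylow IsSylowIn)
open scoped commutatorElement

variable {G : Type*} [Group G] [Finite G] {Q : Subgroup G} {z : G}

namespace Ctx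

variable (c : Ctx Q z) (hnc : ¬ IsMulCommutative ↥(normalClosure ({z} : Set G)))
include c hnc

/-- The structure when `Q` has exactly two conjugates of `T`. -/
theorem size_two {T : Subgroup G} (hT : IsComponent T) {u : G} (hu : u ∈ Q) (h1 : conjSub u T ≠ T)
    (h2 : ∀ x ∈ Q, conjSub x T = T ∨ conjSub x T = conjSub u T) :
    IsSimpleGroup ↥T ∧ ¬ IsMulCommutative ↥T ∧ T ⊓ conjSub u T = ⊥ ∧
      (∀ x ∈ T, ∀ y ∈ conjSub u T, x * y = y * x) ∧ T ⊔ conjSub u T = normalClosure ({z} : Set G) ∧
      ∃ z₁ ∈ T, z = z₁ * (u * z₁ * u⁻¹) ∧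
        (∃ R : Sylow 2 ↥T, (R : Subgroup ↥T) = (centralizer ({z₁} : Set G)).subgroupOf T ∧
          (frattini ↥(R : Subgroup ↥T)).map ((T.subtype).comp (R : Subgroup ↥T).subtype) ≤ zpowers z₁) ∧
        Q ≠ (pCore 2 ↥(centralizer ({z} : Set G))).map (centralizer ({z} : Set G)).subtype := by
  have hp : Fact (Nat.Prime 2) := ⟨Nat.prime_two⟩
  have hT' : IsComponent (conjSub u T) := component_map_conj u hT
  have hcp : ∀ K, IsComponent K → K = T ∨ K = conjSub u T := by
    intro K hK
    obtain ⟨q, hq, rfl⟩ := c.transitive hnc hT hK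
    exact h2 q hq
  have hY : sSup (Cp G \ {T}) = conjSub u T := by
    apply le_antisymm
    · refine sSup_le fun K hK => ?_
      rcases hcp K hK.1 with h | h
      · exact absurd h hK.2
      · exact h.le
    · exact c.le_compl hnc hT' h1
  have hD : Dec T (conjSub u T) := by
    have := c.dec_single hnc hT
    rwa [hY] at this
  have hsup : T ⊔ conjSub u T = normalClosure ({z} : Set G) := by
    rw [← hY]
    have := c.sup_compl hnc (A := {T}) (by simpa using hT)
    rwa [sSup_singleton] at this
  obtain ⟨t, ht, w, hw, htw⟩ : ∃ t ∈ T, ∃ w ∈ conjSub u T, t * w = z := by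
    have := c.exists_dec_single hnc hT c.mem_closure
    rwa [hY] at this
  have hwY : w ∈ sSup (Cp G \ {T}) := by rw [hY]; exact hw
  have htt : t * t = 1 := c.factor_sq hnc hT ht hwY htw
  have ht1 : t ≠ 1 := fun h => c.factor_ne_one hnc hT hwY htw h
  have huu : ∀ {k}, k ∈ conjSub u T → u * k * u⁻¹ ∈ T := by
    intro k hk
    have h3 := c.conj_sq hnc hT hu
    rw [conjSub_mul] at h3
    rw [← h3]
    exact conj_mem_conjSub hk
  have hwe : w = u * t * u⁻¹ := by
    have h3 : (u * w * u⁻¹) * (u * t * u⁻¹) = t * w := by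
      have h4 : (u * w * u⁻¹) * (u * t * u⁻¹) = (u * t * u⁻¹) * (u * w * u⁻¹) :=
        (hD.comm _ (huu hw) _ (conj_mem_conjSub ht))
      rw [h4, htw]
      calc (u * t * u⁻¹) * (u * w * u⁻¹) = u * (t * w) * u⁻¹ := by group
        _ = u * z * u⁻¹ := by rw [htw]
        _ = z := c.central_z hu
    exact (hD.uniq (huu hw) ht (conj_mem_conjSub ht) hw h3).2.symm
  have hze : z = t * (u * t * u⁻¹) := by rw [← hwe, htw]
  -- commuting with `t` and with `z`
  have hcz : ∀ d ∈ T, d * t = t * d ↔ d * z = z * d := by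
    intro d hd
    have hdw := hD.comm d hd w hw
    rw [← htw]
    constructor
    · intro h
      calc d * (t * w) = (d * t) * w := by group
        _ = (t * d) * w := by rw [h]
        _ = t * (d * w) := by group
        _ = t * (w * d) := by rw [hdw]
        _ = t * w * d := by group
    · intro h
      have h3 : (d * t) * w = (t * d) * w := by
        calc (d * t) * w = d * (t * w) := by group
          _ = t * w * d := h
          _ = t * (w * d) := by group
          _ = t * (d * w) := by rw [hdw]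
          _ = (t * d) * w := by group
      exact mul_right_cancel h3
  -- squares
  have hsq : ∀ d ∈ T, d * t = t * d → d * d = 1 ∨ d * d = t := by
    intro d hd hdt
    have hdz := (hcz d hd).mp hdt
    have hy := c.comm_mem hdz hu
    have hyy := c.L.hQ.hsq _ hy
    have hcomm : (u * d⁻¹ * u⁻¹) * d = d * (u * d⁻¹ * u⁻¹) :=
      (hD.comm d hd _ (conj_mem_conjSub (T.inv_mem hd))).symm
    have e : (d * (u * d⁻¹ * u⁻¹)) * (d * (u * d⁻¹ * u⁻¹)) = (d * d) * (u * (d * d)⁻¹ * u⁻¹) := by
      calc (d * (u * d⁻¹ * u⁻¹)) * (d * (u * d⁻¹ * u⁻¹)) = d * ((u * d⁻¹ * u⁻¹) * d) * (u * d⁻¹ * u⁻¹) := by group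
        _ = d * (d * (u * d⁻¹ * u⁻¹)) * (u * d⁻¹ * u⁻¹) := by rw [hcomm]
        _ = (d * d) * (u * (d * d)⁻¹ * u⁻¹) := by group
    rw [e] at hyy
    have hmem : u * (d * d)⁻¹ * u⁻¹ ∈ conjSub u T := conj_mem_conjSub (T.inv_mem (T.mul_mem hd hd))
    rcases c.L.hQ.eq_one_or hyy with h3 | h3
    · left
      have h4 : (d * d) * (u * (d * d)⁻¹ * u⁻¹) = 1 * 1 := by rw [h3, one_mul]
      exact (hD.uniq (T.mul_mem hd hd) T.one_mem hmem (Subgroup.one_mem _) h4).1
    · right
      rw [← htw] at h3
      exact (hD.uniq (T.mul_mem hd hd) ht hmem hw h3).1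
  have hfour : ∀ d ∈ T, d * t = t * d → d ^ 4 = 1 := by
    intro d hd hdt
    have e : d ^ 4 = (d * d) * (d * d) := by
      rw [show (4 : ℕ) = 2 + 2 by norm_num, pow_add, pow_two]
    rw [e]
    rcases hsq d hd hdt with h3 | h3
    · rw [h3, one_mul]
    · rw [h3, htt]
  refine ⟨c.comp_simple hnc hT, comp_not_comm hT, ?_, hD.comm, hsup, t, ht, hze, ?_, ?_⟩
  · rw [eq_bot_iff]
    rintro x ⟨hx1, hx2⟩
    exact Subgroup.mem_bot.mpr (hD.inf x hx1 hx2)
  · -- the Sylow subgroup
    obtain ⟨S, -, -, hSz, -⟩ := c.L.exists_sylow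
    obtain ⟨R, hR⟩ := c.sylow_of_comp hnc hT S
    have hle : (R : Subgroup T) ≤ (centralizer ({t} : Set G)).subgroupOf T := by
      intro r hr
      rw [hR, Subgroup.mem_subgroupOf] at hr
      rw [Subgroup.mem_subgroupOf, Subgroup.mem_centralizer_singleton_iff]
      exact (hcz r r.2).mpr (hSz _ hr.1.1)
    have hpg : IsPGroup 2 ↥((centralizer ({t} : Set G)).subgroupOf T) := by
      intro x
      refine ⟨2, Subtype.ext (Subtype.ext ?_)⟩
      have hx := x.2
      rw [Subgroup.mem_subgroupOf, Subgroup.mem_centralizer_singleton_iff] at hx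
      simpa using hfour _ (x : T).2 hx
    have hRe : (R : Subgroup T) = (centralizer ({t} : Set G)).subgroupOf T :=
      (R.is_maximal' hpg hle).symm
    refine ⟨R, hRe, ?_⟩
    rw [Subgroup.map_le_iff_le_comap]
    apply frattini_le_of_sq
    intro s
    have hs := hRe.le s.2
    rw [Subgroup.mem_subgroupOf, Subgroup.mem_centralizer_singleton_iff] at hs
    rw [Subgroup.mem_comap]
    rcases hsq _ ((s : T).2) hs with h3 | h3
    · have : (T.subtype.comp (R : Subgroup T).subtype) (s * s) = 1 := by simpa using h3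
      rw [this]
      exact Subgroup.one_mem _
    · have : (T.subtype.comp (R : Subgroup T).subtype) (s * s) = t := by simpa using h3
      rw [this]
      exact mem_zpowers t
  · -- `Q` is not `O₂(C(z))`
    intro hQe
    refine c.small hnc hT ht ht1 htt fun d hdT hdz => ?_
    have hdC : d ∈ centralizer ({z} : Set G) := Subgroup.mem_centralizer_singleton_iff.mpr hdz
    have hK : IsPGroup 2 ↥((normalClosure ({z} : Set G)).subgroupOf (centralizer ({z} : Set G))) := by
      intro m
      refine ⟨2, Subtype.ext (Subtype.ext ?_)⟩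
      have hmM : ((m : centralizer ({z} : Set G)) : G) ∈ normalClosure ({z} : Set G) :=
        Subgroup.mem_subgroupOf.mp m.2
      have hmC : ((m : centralizer ({z} : Set G)) : G) * z = z * ((m : centralizer ({z} : Set G)) : G) :=
        Subgroup.mem_centralizer_singleton_iff.mp (m : centralizer ({z} : Set G)).2
      obtain ⟨a, ha, b, hb, hab⟩ := mem_sup_of_commuting hD.comm (hsup.ge hmM)
      rw [← hab, ← htw] at hmC
      have e1 : a * b * (t * w) = (a * t) * (b * w) := by
        calc a * b * (t * w) = a * (b * t) * w := by group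
          _ = a * (t * b) * w := by rw [(hD.comm t ht b hb).symm]
          _ = (a * t) * (b * w) := by group
      have e2 : t * w * (a * b) = (t * a) * (w * b) := by
        calc t * w * (a * b) = t * (w * a) * b := by group
          _ = t * (a * w) * b := by rw [(hD.comm a ha w hw).symm]
          _ = (t * a) * (w * b) := by group
      rw [e1, e2] at hmC
      obtain ⟨h3, h4⟩ := hD.uniq (T.mul_mem ha ht) (T.mul_mem ht ha)
        (Subgroup.mul_mem _ hb hw) (Subgroup.mul_mem _ hw hb) hmC
      have ha4 := hfour a ha h3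
      obtain ⟨b', hb', rfl⟩ := hb
      have hb'' : b' * t = t * b' := by
        rw [hwe] at h4
        have h5 : MulAut.conj u (b' * t) = MulAut.conj u (t * b') := by
          simpa [MulAut.conj_apply, mul_assoc] using h4
        exact (MulAut.conj u).injective h5
      have hb4 := hfour b' hb' hb''
      have hm4 : ((m : centralizer ({z} : Set G)) : G) ^ 4 = 1 := by
        rw [← hab]
        have hcm : Commute a ((MulAut.conj u).toMonoidHom b') := hD.comm a ha _ ⟨b', hb', rfl⟩
        rw [hcm.mul_pow, ha4, one_mul, ← map_pow, hb4, map_one]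
      simpa [pow_succ, pow_two, mul_assoc] using hm4
    have hKn : ((normalClosure ({z} : Set G)).subgroupOf (centralizer ({z} : Set G))).Normal := inferInstance
    have hKle := le_pCore (p := 2) hKn hK
    have hdQ : d ∈ Q := by
      rw [hQe]
      exact ⟨⟨d, hdC⟩, hKle (Subgroup.mem_subgroupOf.mpr (c.comp_le hnc hT hdT)), rfl⟩
    have hcom := c.L.hQ.hcom d hdQ u hu
    rw [commutatorElement_def] at hcom
    have e : d * u * d⁻¹ * u⁻¹ = d * (u * d⁻¹ * u⁻¹) := by group
    rw [e] at hcom
    have hmem : u * d⁻¹ * u⁻¹ ∈ conjSub u T := conj_mem_conjSub (T.inv_mem hdT)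
    rcases c.L.hQ.eq_one_or hcom with h3 | h3
    · left
      have h4 : d * (u * d⁻¹ * u⁻¹) = 1 * 1 := by rw [h3, one_mul]
      exact (hD.uniq hdT T.one_mem hmem (Subgroup.one_mem _) h4).1
    · right
      rw [← htw] at h3
      exact (hD.uniq hdT ht hmem hw h3).1

end Ctx

end Cfsg.Agent.Lib.LargeES.Struct
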